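import Cfsg.Agent.R2.Spec.F1.RgdMov
import Cfsg.Agent.H631.Fpf.ParE6
import Cfsg.Agent.H111.Fpf.SevenPar
import Cfsg.Agent.H225.PPow.ChevF
import Cfsg.Agent.H225.PPow.ExcE
import Cfsg.Agent.H35.ExcIdxTw
import Cfsg.Agent.H631.XZ.TE6
import Cfsg.Agent.KFacts.TwESix.Facts
import Cfsg.Agent.H934.RowTwD4
import Cfsg.Agent.H249.PPTwD4
import Cfsg.Agent.S1055

/-!
# Abelian moved subgroups of the exceptional groups (helper23)

`u` = the order of the field, `x ≥ 5` a prime different from the characteristic, `e` the order of `u` modulo `x`: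
`MovA` for

* `G₂` : `e = 1, 2`; `F₄` : `e = 1, 2, 3, 4, 6`; `E₆` : `e = 1, 2, 3, 4, 5, 6, 8`;
* `E₇` : `e = 1, …, 9, 12`; `E₈` : `e = 1, …, 8`; `²E₆` : `e = 1, 2, 3, 4, 6, 8`; `³D₄` : `e = 1, 2`.

`nc_*` : a noncyclic abelian subgroup of characteristic order.
-/

set_option autoImplicit false
set_option linter.unusedSectionVars false
set_option linter.unusedVariables false

namespace Cfsg.Agent.R2.Spec.F1.RM

open CoxeterSystem Cfsg.Agent.ChevalleyStructure.CoxeterGeom Cfsg.Agent.ChevalleyStructure.CoxeterGeomTypes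
  Cfsg.Agent.Tits.Roots Cfsg.Agent.Tits.Core
  Cfsg.Agent.Tits.RootComb Cfsg.Agent.Tits.Exchange Cfsg.Agent.Nodes.Reps Cfsg.Agent.Nodes.BNOf
  Cfsg.Agent.Nodes.StabComb Cfsg.Agent.Nodes.Bruhat Cfsg.Agent.Nodes.OppDec Cfsg.Agent.Nodes.LeviDec
  Cfsg.Agent.Nodes.Coroot Cfsg.Agent.KFacts.RgdSL
  Cfsg.Agent.KFacts.RgdTI Cfsg.Agent.KFacts.RgdCent Cfsg.Agent.H35.ExcIdx Cfsg.Agent.H35.Poin
  Cfsg.Agent.H696.GmnNeg
open Cfsg Cfsg.Lie Cfsg.Agent.ChevalleyStructure Cfsg.Agent.ChevalleyStructure.Elts Cfsg.Agent.Nodes.RGDChev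
  Cfsg.Agent.ChevalleyStructure.RootVec
open Cfsg.Agent.R2.Spec.F1

/-- words in `J` moving the highest root -/
theorem hJ_of {l : ℕ} {W : Type*} [Group W] {M : CoxeterMatrix (Fin l)} {cs : CoxeterSystem M W}
    {A : Fin l → Fin l → ℤ} {h : IsCartan M A} {J : List (Fin l)} {r : Fin l → ℤ} (wd : Fin l → List (Fin l))
    (hc : ∀ i ∈ J, (∀ j ∈ wd i, j ∈ J) ∧ (∑ k, A i k * word A (wd i) r k) ≠ 0) :
    ∀ i ∈ {j | j ∈ J}, ∃ w ∈ WJ cs {j | j ∈ J}, pairing A i (rep cs h w r) ≠ 0 := by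
  intro i hi
  obtain ⟨h1, h2⟩ := hc i hi
  refine ⟨cs.wordProd (wd i), wordProd_mem_WJ cs h1, ?_⟩
  rw [rep_word]
  exact h2

/-- the highest root as a root -/
theorem isRoot_word {l : ℕ} {W : Type*} [Group W] {M : CoxeterMatrix (Fin l)} (cs : CoxeterSystem M W)
    {A : Fin l → Fin l → ℤ} (h : IsCartan M A) {r : Fin l → ℤ} (ω : List (Fin l)) (i : Fin l)
    (hω : word A ω (sr i) = r) : IsRoot cs h r := ⟨cs.wordProd ω, i, by rw [rep_word, hω]⟩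

theorem not_dvd_72 {x d : ℕ} (hx : x.Prime) (hx5 : 5 ≤ x) (hd : d ∣ 72) : ¬ x ∣ d := by
  intro h
  have h4 : x ∣ 2 ^ 3 * 3 ^ 2 := h.trans (hd.trans (by norm_num))
  rcases hx.dvd_mul.1 h4 with h5 | h5
  · have := Nat.le_of_dvd (by norm_num) (hx.dvd_of_dvd_pow h5)
    omega
  · have := Nat.le_of_dvd (by norm_num) (hx.dvd_of_dvd_pow h5)
    omega

/-- primes not dividing `|B|` -/
theorem not_dvd_B {I W Y : Type*} [Fintype I] [DecidableEq I] [Group W] [Group Y] {M : CoxeterMatrix I}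
    {cs : CoxeterSystem M W} {A : I → I → ℤ} {h : IsCartan M A} {p : ℕ} {T : Subgroup Y} {n : I → Y}
    {X : (I → ℤ) → Subgroup Y} [Finite W] [Finite Y] [hp : Fact p.Prime] (R : RGD cs h p T n X) {x : ℕ} (hx : x.Prime)
    (hxp : x ≠ p) (hxT : ¬ x ∣ Nat.card T) : ¬ x ∣ Nat.card (RGD.B cs h T X) := by
  rw [card_B' R, hx.dvd_mul]
  rintro (h1 | h1)
  · obtain ⟨a, ha⟩ := (IsPGroup.iff_card (p := p)).1 R.isPGroup_Upos
    rw [ha] at h1
    exact hxp ((Nat.prime_dvd_prime_iff_eq hx hp.out).1 (hx.dvd_of_dvd_pow h1))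
  · exact hxT h1

/-! ### split groups -/

section Split

universe u

variable {D : ChevalleyDatum} {l : ℕ} {M : CoxeterMatrix (Fin l)} (hp : IsType D l M) (K : Type u) [Field K]
  [Fintype K] (p : ℕ) [hpf : Fact p.Prime] [CharP K p]

include hp in
theorem dvd_tor {d x : ℕ} (hd : d ∣ 72) (hT : d * Nat.card (D.diagonalSubgroup K) = (Fintype.card K - 1) ^ D.rank)
    (hx : x.Prime) (hx5 : 5 ≤ x) : x ∣ Nat.card (TT D K) ↔ x ∣ (Fintype.card K - 1) ^ D.rank := by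
  have h1 : Nat.card (TT D K) = Nat.card (D.diagonalSubgroup K) :=
    Nat.card_congr (Subgroup.subgroupOfEquivOfLe (diagonal_le_group hp.inList K)).toEquiv
  rw [h1, ← hT, hx.dvd_mul]
  constructor
  · exact Or.inr
  · rintro (h2 | h2)
    · exact absurd h2 (not_dvd_72 hx hx5 hd)
    · exact h2

/-- the root groups of the split groups are abelian -/
theorem xx_comm {W : Type*} [Group W] (cs : CoxeterSystem M W) {a : Fin l → ℤ} (ha : IsRoot cs hp.isCartan a)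
    {u v : ↥(D.group K)} (hu : u ∈ XX D l K a) (hv : v ∈ XX D l K a) : u * v = v * u := by
  obtain ⟨r, hr, rfl⟩ := (isRoot_iff hp cs a).1 ha
  have hu' : (u : GL D.Idx K) ∈ XV D l K (vec D l r) := hu
  have hv' : (v : GL D.Idx K) ∈ XV D l K (vec D l r) := hv
  rw [XV_vec hp K hr, mem_rootSubgroup_iff hp.inList] at hu' hv'
  obtain ⟨s, hs⟩ := hu'
  obtain ⟨t, ht⟩ := hv'
  apply Subtype.ext
  rw [Subgroup.coe_mul, Subgroup.coe_mul, hs, ht, xG_add, xG_add, add_comm]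

include hp hpf in
theorem movA_one (hs : IsSimpleGroup ↥(D.group K)) (hnc : ∃ a b : ↥(D.group K), a * b ≠ b * a) {d x : ℕ} (hd : d ∣ 72)
    (hT : d * Nat.card (D.diagonalSubgroup K) = (Fintype.card K - 1) ^ D.rank) (hr : 0 < D.rank) (hx : x.Prime)
    (hx5 : 5 ≤ x) (hx1 : x ∣ Fintype.card K - 1) : MovA ↥(D.group K) p x := by
  have hW := finite_W hp M.toCoxeterSystem
  have R := rgd (K := K) hp M.toCoxeterSystem p
  refine movA_tor R (KFacts.RgdLieCharP.noCent_of_center (G1_eq_top hp _) (KFacts.RgdLieCharP.center_eq_bot hnc))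
    (fun a ha u hu v hv => xx_comm hp K M.toCoxeterSystem ha hu hv) hx ?_
  exact (dvd_tor hp K hd hT hx hx5).2 (dvd_pow hx1 hr.ne')

include hp in
theorem movA_split {d x : ℕ} (hd : d ∣ 72)
    (hT : d * Nat.card (D.diagonalSubgroup K) = (Fintype.card K - 1) ^ D.rank) {r : Fin l → ℤ}
    (L : LR (rgd (K := K) hp M.toCoxeterSystem p) r) (hdom : Dom (cartanOf D l) r) (hr0 : 0 ≤ r)
    {J : List (Fin l)} (hk : ∃ k, k ∉ J ∧ 0 < r k) (wd : Fin l → List (Fin l))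
    (hc : ∀ i ∈ J, (∀ j ∈ wd i, j ∈ J) ∧ (∑ k, cartanOf D l i k * word (cartanOf D l) (wd i) r k) ≠ 0)
    (hx : x.Prime) (hx5 : 5 ≤ x) (hxp : x ≠ p) (hx1 : ¬ x ∣ Fintype.card K - 1)
    (hxP : x ∣ Nat.card ↥(PJ M.toCoxeterSystem hp.isCartan (TT D K) (XX D l K) {j | j ∈ J})) :
    MovA ↥(D.group K) p x := by
  have hW := finite_W hp M.toCoxeterSystem
  have R := rgd (K := K) hp M.toCoxeterSystem p
  refine movA_par R L (cpr_of_dom L.root hdom) ⟨L.root, hr0, hk⟩ (hJ_of wd hc) hx hxP (not_dvd_B R hx hxp ?_)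
  rw [dvd_tor hp K hd hT hx hx5]
  exact fun h => hx1 (hx.dvd_of_dvd_pow h)

end Split

/-! ### numbers -/

/-- the order of `q` modulo `x` -/
theorem dvd_sum {x q k : ℕ} (hx : x.Prime) (hk : orderOf ((q : ℕ) : ZMod x) ∣ k)
    (h1 : ¬ x ∣ q - 1) (hq : 1 ≤ q) : x ∣ ∑ t ∈ Finset.range k, q ^ t := by
  have h2 : x ∣ q ^ k - 1 := Cfsg.Agent.H378.ExcAdj.dvd_of_od_dvd hq hk
  have h3 : (q - 1) * ∑ t ∈ Finset.range k, q ^ t = q ^ k - 1 := by
    obtain ⟨a, rfl⟩ : ∃ a, q = a + 1 := ⟨q - 1, by omega⟩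
    rw [Nat.add_sub_cancel]
    apply Nat.eq_sub_of_add_eq
    induction k with
    | zero => simp
    | succ k ih =>
      clear ih h2 hk
      induction k with
      | zero => simp
      | succ k ih =>
        rw [Finset.sum_range_succ, mul_add, add_assoc, add_comm (a * _) 1, ← add_assoc, ih]
        ring
  rw [← h3, hx.dvd_mul] at h2
  exact h2.resolve_left h1

theorem dvd_FA {x q m : ℕ} (hx : x.Prime) {e : ℕ} (he : orderOf ((q : ℕ) : ZMod x) = e) (h2 : 2 ≤ e) (hm : e ≤ m + 1)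
    (h1 : ¬ x ∣ q - 1) (hq : 1 ≤ q) : x ∣ FA m q := by
  unfold FA
  refine dvd_trans ?_ (Finset.dvd_prod_of_mem _ (Finset.mem_range.2 (by omega : e - 2 < m)))
  rw [show e - 2 + 2 = e by omega]
  exact dvd_sum hx (by rw [he]) h1 hq

theorem not_dvd_sub {x q : ℕ} (hq : 1 ≤ q) (h : orderOf ((q : ℕ) : ZMod x) ≠ 1) : ¬ x ∣ q - 1 := by
  intro h1
  have h2 := Cfsg.Agent.H378.ExcAdj.od_dvd hq (n := 1) (r := x) (by rwa [pow_one])
  exact h (Nat.dvd_one.1 h2)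

/-! ### `E₆`, `E₇`, `E₈`, `F₄`, `G₂` -/

section Inst

universe u

variable (K : Type u) [Field K] [Fintype K] (p : ℕ) [hpf : Fact p.Prime] [CharP K p]

theorem exists_nc_of {G : Type*} [Group G] (h : ¬ IsMulCommutative G) : ∃ a b : G, a * b ≠ b * a := by
  by_contra hcon
  push Not at hcon
  exact h ⟨⟨hcon⟩⟩

theorem lr6 {r : Fin 6 → ℤ} (hr : IsRoot CoxeterMatrix.E₆.toCoxeterSystem hpE6.isCartan r) :
    LR (rgd (K := K) hpE6 CoxeterMatrix.E₆.toCoxeterSystem p) r := by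
  have := finite_W hpE6 CoxeterMatrix.E₆.toCoxeterSystem
  exact KFacts.RgdKap.lr_of (fun i j => (Cfsg.Agent.H225.PPow.ne6 i j).1) (fun i j => (Cfsg.Agent.H225.PPow.ne6 i j).2)
    Cfsg.Agent.H225.PPow.conn_E6 (by rw [Fintype.card_fin]; norm_num) _ _ hr

theorem lr7 {r : Fin 7 → ℤ} (hr : IsRoot CoxeterMatrix.E₇.toCoxeterSystem hpE7.isCartan r) :
    LR (rgd (K := K) hpE7 CoxeterMatrix.E₇.toCoxeterSystem p) r := by
  have := finite_W hpE7 CoxeterMatrix.E₇.toCoxeterSystem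
  exact KFacts.RgdKap.lr_of (fun i j => (Cfsg.Agent.H225.PPow.ne7 i j).1) (fun i j => (Cfsg.Agent.H225.PPow.ne7 i j).2)
    Cfsg.Agent.H225.PPow.conn_E7 (by rw [Fintype.card_fin]; norm_num) _ _ hr

theorem lr8 {r : Fin 8 → ℤ} (hr : IsRoot CoxeterMatrix.E₈.toCoxeterSystem hpE8.isCartan r) :
    LR (rgd (K := K) hpE8 CoxeterMatrix.E₈.toCoxeterSystem p) r := by
  have := finite_W hpE8 CoxeterMatrix.E₈.toCoxeterSystem
  exact KFacts.RgdKap.lr_of (fun i j => (Cfsg.Agent.H225.PPow.ne8 i j).1) (fun i j => (Cfsg.Agent.H225.PPow.ne8 i j).2)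
    Cfsg.Agent.H225.PPow.conn_E8 (by rw [Fintype.card_fin]; norm_num) _ _ hr

/-- the highest roots -/
def hr6 : Fin 6 → ℤ := ![1, 2, 2, 3, 2, 1]
def hr7 : Fin 7 → ℤ := ![2, 2, 3, 4, 3, 2, 1]
def hr8 : Fin 8 → ℤ := ![2, 3, 4, 6, 5, 4, 3, 2]
def hrF : Fin 4 → ℤ := ![2, 4, 3, 2]
def hrG : Fin 2 → ℤ := ![3, 2]

theorem root6 : IsRoot CoxeterMatrix.E₆.toCoxeterSystem hpE6.isCartan hr6 :=
  isRoot_word _ _ [1, 3, 2, 0, 4, 3, 1, 2, 3, 4] 5 (by decide +kernel)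

theorem root7 : IsRoot CoxeterMatrix.E₇.toCoxeterSystem hpE7.isCartan hr7 :=
  isRoot_word _ _ [0, 2, 3, 1, 4, 3, 2, 0, 5, 4, 3, 1, 2, 3, 4, 5] 6 (by decide +kernel)

theorem root8 : IsRoot CoxeterMatrix.E₈.toCoxeterSystem hpE8.isCartan hr8 :=
  isRoot_word _ _ [7, 6, 5, 4, 3, 1, 2, 0, 3, 2, 4, 3, 1, 5, 4, 3, 2, 0, 6, 5, 4, 3, 1, 2, 3, 4, 5, 6] 7
    (by decide +kernel)

theorem dom6 : Dom (cartanOf chevE6 6) hr6 := by
  have : ∀ i : Fin 6, 0 ≤ ∑ k, cartanOf chevE6 6 i k * hr6 k := by decide +kernel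
  exact this

theorem dom7 : Dom (cartanOf chevE7 7) hr7 := by
  have : ∀ i : Fin 7, 0 ≤ ∑ k, cartanOf chevE7 7 i k * hr7 k := by decide +kernel
  exact this

theorem dom8 : Dom (cartanOf chevE8 8) hr8 := by
  have : ∀ i : Fin 8, 0 ≤ ∑ k, cartanOf chevE8 8 i k * hr8 k := by decide +kernel
  exact this

theorem domF : Dom (cartanOf chevF4 4) hrF := by
  have : ∀ i : Fin 4, 0 ≤ ∑ k, cartanOf chevF4 4 i k * hrF k := by decide +kernel
  exact this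

theorem domG : Dom (cartanOf chevG2 2) hrG := by
  have : ∀ i : Fin 2, 0 ≤ ∑ k, cartanOf chevG2 2 i k * hrG k := by decide +kernel
  exact this

theorem lrF : LR (rgd (K := K) hpF4 CoxeterMatrix.F₄.toCoxeterSystem p) hrF := by
  have := finite_W hpF4 CoxeterMatrix.F₄.toCoxeterSystem
  have L : LR (rgd (K := K) hpF4 CoxeterMatrix.F₄.toCoxeterSystem p) (sr (3 : Fin 4)) :=
    Cfsg.Agent.H225.PPow.lr_tab hpF4 _ p (d := 0) (dvd_zero _) Cfsg.Agent.H225.PPow.lrF4_3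
  have h1 := L.act (CoxeterMatrix.F₄.toCoxeterSystem.wordProd [3, 2, 1, 0, 2, 1, 2])
  have h2 : rep CoxeterMatrix.F₄.toCoxeterSystem hpF4.isCartan
      (CoxeterMatrix.F₄.toCoxeterSystem.wordProd [3, 2, 1, 0, 2, 1, 2]) (sr (3 : Fin 4)) = hrF := by
    rw [rep_word]
    decide +kernel
  rwa [h2] at h1

theorem lrG : LR (rgd (K := K) Cfsg.Agent.H225.PPow.type_G2 CoxeterMatrix.G₂.toCoxeterSystem p) hrG := by
  have := finite_W Cfsg.Agent.H225.PPow.type_G2 CoxeterMatrix.G₂.toCoxeterSystem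
  have L : LR (rgd (K := K) Cfsg.Agent.H225.PPow.type_G2 CoxeterMatrix.G₂.toCoxeterSystem p) (sr (1 : Fin 2)) :=
    Cfsg.Agent.H225.PPow.lr_tab Cfsg.Agent.H225.PPow.type_G2 _ p (d := 0) (dvd_zero _) Cfsg.Agent.H225.PPow.lrG2_1
  have h1 := L.act (CoxeterMatrix.G₂.toCoxeterSystem.wordProd [1, 0])
  have h2 : rep CoxeterMatrix.G₂.toCoxeterSystem Cfsg.Agent.H225.PPow.type_G2.isCartan
      (CoxeterMatrix.G₂.toCoxeterSystem.wordProd [1, 0]) (sr (1 : Fin 2)) = hrG := by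
    rw [rep_word]
    decide +kernel
  rwa [h2] at h1

end Inst

end Cfsg.Agent.R2.Spec.F1.RM
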