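import Cfsg.Agent.R2.Spec.F1.ExcMov

/-!
# Abelian moved subgroups of the exceptional groups, the families (helper23)

`movA_g2`, `movA_f4`, `movA_e6`, `movA_e7`, `movA_e8`, `movA_te6`, `movA_td4`.
-/

set_option autoImplicit false
set_option linter.unusedSectionVars false
set_option linter.unusedVariables false

namespace Cfsg.Agent.R2.Spec.F1.RM

open CoxeterSystem Cfsg.Agent.ChevalleyStructure.CoxeterGeom Cfsg.Agent.ChevalleyStructure.CoxeterGeomTypes
  Cfsg.Agent.Tits.Roots Cfsg.Agent.Tits.Core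
  Cfsg.Agent.Tits.RootComb Cfsg.Agent.Tits.Exchange Cfsg.Agent.Nodes.Reps Cfsg.Agent.Nodes.BNOf
  Cfsg.Agent.Nodes.StabComb Cfsg.Agent.Nodes.Bruhat Cfsg.Agent.Nodes.OppDec Cfsg.Agent.Nodes.LeviDec
  Cfsg.Agent.Nodes.Coroot Cfsg.Agent.KFacts.RgdSL
  Cfsg.Agent.KFacts.RgdTI Cfsg.Agent.KFacts.RgdCent Cfsg.Agent.H35.ExcIdx Cfsg.Agent.H35.Poin
  Cfsg.Agent.H696.GmnNeg
open Cfsg Cfsg.Lie Cfsg.Agent.ChevalleyStructure Cfsg.Agent.ChevalleyStructure.Elts Cfsg.Agent.Nodes.RGDChev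
  Cfsg.Agent.ChevalleyStructure.RootVec
open Cfsg.Agent.R2.Spec.F1

variable (K : Type) [Field K] [Fintype K] (p : ℕ) [hpf : Fact p.Prime] [CharP K p]

theorem nonneg6 : 0 ≤ hr6 := by
  have : ∀ i, 0 ≤ hr6 i := by decide
  exact this

theorem nonneg7 : 0 ≤ hr7 := by
  have : ∀ i, 0 ≤ hr7 i := by decide
  exact this

theorem nonneg8 : 0 ≤ hr8 := by
  have : ∀ i, 0 ≤ hr8 i := by decide
  exact this

theorem nonnegF : 0 ≤ hrF := by
  have : ∀ i, 0 ≤ hrF i := by decide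
  exact this

theorem nonnegG : 0 ≤ hrG := by
  have : ∀ i, 0 ≤ hrG i := by decide
  exact this

/-- **`E₆(u)`.** -/
theorem movA_e6 {x : ℕ} (hx : x.Prime) (hx5 : 5 ≤ x) (hxp : x ≠ p)
    (he : orderOf ((Nat.card K : ℕ) : ZMod x) ∈ ({1, 2, 3, 4, 5, 6, 8} : Set ℕ)) : MovA ↥(chevE6.group K) p x := by
  have hsim := S1054.result (F := K) chevE6 (by simp)
  have hT := S1035.result (F := K) rfl (chevE6, Nat.gcd 3 (Fintype.card K - 1)) (by simp)
  have hd : Nat.gcd 3 (Fintype.card K - 1) ∣ 72 := (Nat.gcd_dvd_left _ _).trans (by norm_num)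
  have hq : Nat.card K = Fintype.card K := Nat.card_eq_fintype_card
  by_cases h1 : x ∣ Fintype.card K - 1
  · exact movA_one hpE6 K p hsim.1 (exists_nc_of hsim.2) hd hT (by decide) hx hx5 h1
  · refine movA_split hpE6 K p hd hT (lr6 K p root6) dom6 nonneg6 (J := [0, 1, 2, 3, 4]) ⟨5, by decide, by decide⟩
      ![[2, 3, 1], [], [3, 1], [1], [3, 1], []] (by decide +kernel) hx hx5 hxp h1 ?_
    refine Cfsg.Agent.H631.Fpf.ParE6.dvd_PD5 hx ?_
    simp only [Set.mem_insert_iff, Set.mem_singleton_iff] at he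
    exact he

/-- **`E₇(u)`.** -/
theorem movA_e7 {x : ℕ} (hx : x.Prime) (hx5 : 5 ≤ x) (hxp : x ≠ p)
    (he : orderOf ((Nat.card K : ℕ) : ZMod x) ∈ ({1, 2, 3, 4, 5, 6, 7, 8, 9, 12} : Set ℕ)) :
    MovA ↥(chevE7.group K) p x := by
  have hsim := S1054.result (F := K) chevE7 (by simp)
  have hT := S1035.result (F := K) rfl (chevE7, Nat.gcd 2 (Fintype.card K - 1)) (by simp)
  have hd : Nat.gcd 2 (Fintype.card K - 1) ∣ 72 := (Nat.gcd_dvd_left _ _).trans (by norm_num)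
  have hq : Nat.card K = Fintype.card K := Nat.card_eq_fintype_card
  by_cases h1 : x ∣ Fintype.card K - 1
  · exact movA_one hpE7 K p hsim.1 (exists_nc_of hsim.2) hd hT (by decide) hx hx5 h1
  by_cases h7 : orderOf ((Nat.card K : ℕ) : ZMod x) = 7
  · refine movA_split hpE7 K p hd hT (lr7 K p root7) dom7 nonneg7 (J := [0, 2, 3, 4, 5, 6]) ⟨1, by decide, by decide⟩
      ![[], [], [0], [2, 0], [3, 2, 0], [4, 3, 2, 0], [5, 4, 3, 2, 0]] (by decide +kernel) hx hx5 hxp h1 ?_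
    exact Cfsg.Agent.H111.Fpf.SevenPar.dvd_b K p hx h7
  · refine movA_split hpE7 K p hd hT (lr7 K p root7) dom7 nonneg7 (J := [0, 1, 2, 3, 4, 5]) ⟨6, by decide, by decide⟩
      ![[], [3, 2, 0], [0], [2, 0], [3, 2, 0], [4, 3, 2, 0], []] (by decide +kernel) hx hx5 hxp h1 ?_
    refine Cfsg.Agent.H111.Fpf.SevenPar.dvd_a K p hx (by omega) ?_
    simp only [Set.mem_insert_iff, Set.mem_singleton_iff] at he
    rcases he with h | h | h | h | h | h | h | h | h | h
    all_goals first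
      | exact absurd h h7
      | simp only [Cfsg.Agent.H378.ExcAdj.od, h]; norm_num

theorem path8 : PathOK CoxeterMatrix.E₈ [0, 2, 3, 4, 5, 6, 7] [0, 2, 3, 4, 5, 6, 7] [] 0 := by
  constructor <;> decide +kernel

/-- **`E₈(u)`.** -/
theorem movA_e8 {x : ℕ} (hx : x.Prime) (hx5 : 5 ≤ x) (hxp : x ≠ p)
    (he : orderOf ((Nat.card K : ℕ) : ZMod x) ∈ ({1, 2, 3, 4, 5, 6, 7, 8} : Set ℕ)) :
    MovA ↥(chevE8.group K) p x := by
  have hsim := S1054.result (F := K) chevE8 (by simp)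
  have hT := S1035.result (F := K) rfl (chevE8, 1) (by simp)
  have hd : 1 ∣ 72 := one_dvd _
  have hq : Nat.card K = Fintype.card K := Nat.card_eq_fintype_card
  by_cases h1 : x ∣ Fintype.card K - 1
  · exact movA_one hpE8 K p hsim.1 (exists_nc_of hsim.2) hd hT (by decide) hx hx5 h1
  · refine movA_split hpE8 K p hd hT (lr8 K p root8) dom8 nonneg8 (J := [0, 2, 3, 4, 5, 6, 7])
      ⟨1, by decide, by decide⟩
      ![[2, 3, 4, 5, 6, 7], [], [3, 4, 5, 6, 7], [4, 5, 6, 7], [5, 6, 7], [6, 7], [7], []]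
      (by decide +kernel) hx hx5 hxp h1 ?_
    have := finite_W hpE8 CoxeterMatrix.E₈.toCoxeterSystem
    have R := rgd (K := K) hpE8 CoxeterMatrix.E₈.toCoxeterSystem p
    have hc : ∀ i, Nat.card (XX chevE8 8 K (sr i)) = Nat.card K := fun i =>
      card_XX hpE8 K CoxeterMatrix.E₈.toCoxeterSystem (isRoot_sr _ _ i)
    rw [card_step R path8 (y := Nat.card K) (fun i _ => hc i) (card_nil R)]
    refine Dvd.dvd.mul_right (Dvd.dvd.mul_right ?_ _) _
    have h1' : ¬ x ∣ Nat.card K - 1 := by rwa [hq]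
    simp only [Set.mem_insert_iff, Set.mem_singleton_iff] at he
    obtain ⟨e, hee⟩ : ∃ e, e = orderOf ((Nat.card K : ℕ) : ZMod x) := ⟨_, rfl⟩
    have h2 : e ≠ 1 := by
      intro h3
      apply h1'
      have := Cfsg.Agent.H378.ExcAdj.dvd_of_od_dvd (q := Nat.card K) (r := x) (n := 1) Nat.card_pos (by
        change orderOf ((Nat.card K : ℕ) : ZMod x) ∣ 1
        rw [← hee, h3])
      rwa [pow_one] at this
    rw [← hee] at he
    exact dvd_FA hx hee.symm (by omega) (by simp only [List.length_cons, List.length_nil]; omega) h1' Nat.card_pos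

open Cfsg.Agent.H134.StrP in
theorem tabF : Tab (cartanOf chevF4 4) [1, 2, 3] 1 [(![0, 1, 0, 0], 0), (![1, -1, 2, 0], 1), (![1, 1, -2, 2], 2),
    (![2, -1, 0, 2], 3), (![1, 1, 0, -2], 3), (![2, -1, 2, -2], 4), (![2, 1, -2, 0], 5), (![3, -1, 0, 0], 6)] :=
  Tab.of_check (by decide +kernel)

theorem pathF : PathOK CoxeterMatrix.F₄ [2, 3] [2, 3] [] 0 := by constructor <;> decide +kernel

/-- **`F₄(u)`.** -/
theorem movA_f4 {x : ℕ} (hx : x.Prime) (hx5 : 5 ≤ x) (hxp : x ≠ p)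
    (he : orderOf ((Nat.card K : ℕ) : ZMod x) ∈ ({1, 2, 3, 4, 6} : Set ℕ)) :
    MovA ↥(chevF4.group K) p x := by
  have hsim := S1054.result (F := K) chevF4 (by simp)
  have hT := S1035.result (F := K) rfl (chevF4, 1) (by simp)
  have hd : 1 ∣ 72 := one_dvd _
  have hq : Nat.card K = Fintype.card K := Nat.card_eq_fintype_card
  by_cases h1 : x ∣ Fintype.card K - 1
  · exact movA_one hpF4 K p hsim.1 (exists_nc_of hsim.2) hd hT (by decide) hx hx5 h1
  · refine movA_split hpF4 K p hd hT (lrF K p) domF nonnegF (J := [1, 2, 3])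
      ⟨0, by decide, by decide⟩ ![[], [2, 3], [3], []] (by decide +kernel) hx hx5 hxp h1 ?_
    have := finite_W hpF4 CoxeterMatrix.F₄.toCoxeterSystem
    have R := rgd (K := K) hpF4 CoxeterMatrix.F₄.toCoxeterSystem p
    have hc : ∀ i, Nat.card (XX chevF4 4 K (sr i)) = Nat.card K := fun i =>
      card_XX hpF4 K CoxeterMatrix.F₄.toCoxeterSystem (isRoot_sr _ _ i)
    have h2 := card_step R pathF (y := Nat.card K) (fun i _ => hc i) (card_nil R)
    have h3 := Cfsg.Agent.H134.StrP.card_tab_step R tabF (y := Nat.card K) (fun i _ => hc i) (J' := [2, 3])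
      (by decide) h2
    rw [h3]
    refine Dvd.dvd.mul_right ?_ _
    have hN : ((([(![0, 1, 0, 0], 0), (![1, -1, 2, 0], 1), (![1, 1, -2, 2], 2),
      (![2, -1, 0, 2], 3), (![1, 1, 0, -2], 3), (![2, -1, 2, -2], 4), (![2, 1, -2, 0], 5), (![3, -1, 0, 0], 6)] :
      List ((Fin 4 → ℤ) × ℕ)).map fun e => Nat.card K ^ e.2).sum * (FA [(2 : Fin 4), 3].length (Nat.card K) * 1)) =
      ((1 + Nat.card K) * (1 + Nat.card K ^ 2) * (1 + Nat.card K ^ 3)) *
        ((1 + Nat.card K) * (1 + Nat.card K + Nat.card K ^ 2)) := by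
      simp only [List.map_cons, List.map_nil, List.sum_cons, List.sum_nil, List.length_cons, List.length_nil, FA,
        Finset.prod_range_succ, Finset.prod_range_zero, Finset.sum_range_succ, Finset.sum_range_zero]
      ring
    rw [hN]
    have h1' : ¬ x ∣ Nat.card K - 1 := by rwa [hq]
    simp only [Set.mem_insert_iff, Set.mem_singleton_iff] at he
    generalize Nat.card K = q at *
    have hcast : ∀ (P : ℤ) (N : ℕ), (x : ℤ) ∣ P → P ∣ (N : ℤ) → x ∣ N := fun P N h1 h2 =>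
      Int.natCast_dvd_natCast.1 (h1.trans h2)
    rcases he with h | h | h | h | h
    · exact absurd (by
        have := Cfsg.Agent.H378.CycTab.dvd1 h
        rw [Cfsg.Agent.H378.CycTab.pv1] at this
        have hq1 : 1 ≤ q := by rw [hq]; exact Fintype.card_pos
        have h9 : ((q - 1 : ℕ) : ℤ) = (q : ℤ) - 1 := by push_cast [Nat.cast_sub hq1]; ring
        rw [← h9] at this
        exact Int.natCast_dvd_natCast.1 this) h1'
    · refine hcast _ _ (Cfsg.Agent.H378.CycTab.dvd2 hx h) ?_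
      rw [Cfsg.Agent.H378.CycTab.pv2]
      push_cast
      exact ⟨((1 + (q : ℤ) ^ 2) * (1 + (q : ℤ) ^ 3)) * ((1 + q) * (1 + q + (q : ℤ) ^ 2)), by ring⟩
    · refine hcast _ _ (Cfsg.Agent.H378.CycTab.dvd3 hx h) ?_
      rw [Cfsg.Agent.H378.CycTab.pv3]
      push_cast
      exact ⟨((1 + (q : ℤ)) * (1 + (q : ℤ) ^ 2) * (1 + (q : ℤ) ^ 3)) * (1 + q), by ring⟩
    · refine hcast _ _ (Cfsg.Agent.H378.CycTab.dvd4 hx h) ?_
      rw [Cfsg.Agent.H378.CycTab.pv4]
      push_cast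
      exact ⟨((1 + (q : ℤ)) * (1 + (q : ℤ) ^ 3)) * ((1 + q) * (1 + q + (q : ℤ) ^ 2)), by ring⟩
    · refine hcast _ _ (Cfsg.Agent.H378.CycTab.dvd6 hx h) ?_
      rw [Cfsg.Agent.H378.CycTab.pv6]
      push_cast
      exact ⟨((1 + (q : ℤ)) * (1 + (q : ℤ) ^ 2) * (1 + q)) * ((1 + q) * (1 + q + (q : ℤ) ^ 2)), by ring⟩

theorem pathG : PathOK CoxeterMatrix.G₂ [1] [1] [] 0 := by constructor <;> decide +kernel

/-- **`G₂(u)`.** -/
theorem movA_g2 {x : ℕ} (hx : x.Prime) (hx5 : 5 ≤ x) (hxp : x ≠ p) (hK3 : 3 ≤ Fintype.card K)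
    (he : orderOf ((Nat.card K : ℕ) : ZMod x) ∈ ({1, 2} : Set ℕ)) :
    MovA ↥(chevG2.group K) p x := by
  have hsim := S1055.result (F := K) (by
    classical
    obtain ⟨a, ha⟩ : ∃ a : Kˣ, a ≠ 1 := by
      by_contra hcon
      push Not at hcon
      have h1 : Nat.card Kˣ = 1 := Nat.card_eq_one_iff_unique.2 ⟨⟨fun a b => by rw [hcon a, hcon b]⟩, ⟨1⟩⟩
      have h2 := Nat.card_units K
      rw [Nat.card_eq_fintype_card (α := K)] at h2
      omega
    exact ⟨a, a.ne_zero, fun h => ha (Units.ext h)⟩)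
  have hT := S1035.result (F := K) rfl (chevG2, 1) (by simp)
  have hd : 1 ∣ 72 := one_dvd _
  have hq : Nat.card K = Fintype.card K := Nat.card_eq_fintype_card
  by_cases h1 : x ∣ Fintype.card K - 1
  · exact movA_one Cfsg.Agent.H225.PPow.type_G2 K p hsim.1 (exists_nc_of hsim.2) hd hT (by decide) hx hx5 h1
  · refine movA_split Cfsg.Agent.H225.PPow.type_G2 K p hd hT (lrG K p) domG nonnegG (J := [1])
      ⟨0, by decide, by decide⟩ ![[], []] (by decide +kernel) hx hx5 hxp h1 ?_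
    have := finite_W Cfsg.Agent.H225.PPow.type_G2 CoxeterMatrix.G₂.toCoxeterSystem
    have R := rgd (K := K) Cfsg.Agent.H225.PPow.type_G2 CoxeterMatrix.G₂.toCoxeterSystem p
    have hc : ∀ i, Nat.card (XX chevG2 2 K (sr i)) = Nat.card K := fun i =>
      card_XX Cfsg.Agent.H225.PPow.type_G2 K CoxeterMatrix.G₂.toCoxeterSystem (isRoot_sr _ _ i)
    rw [card_step R pathG (y := Nat.card K) (fun i _ => hc i) (card_nil R)]
    refine Dvd.dvd.mul_right (Dvd.dvd.mul_right ?_ _) _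
    have h1' : ¬ x ∣ Nat.card K - 1 := by rwa [hq]
    simp only [Set.mem_insert_iff, Set.mem_singleton_iff] at he
    rcases he with h | h
    · exfalso
      apply h1'
      have := Cfsg.Agent.H378.ExcAdj.dvd_of_od_dvd (q := Nat.card K) (r := x) (n := 1) Nat.card_pos (by
        change orderOf ((Nat.card K : ℕ) : ZMod x) ∣ 1
        rw [h])
      rwa [pow_one] at this
    · exact dvd_FA hx h le_rfl (by simp only [List.length_cons, List.length_nil]; omega) h1' Nat.card_pos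

end Cfsg.Agent.R2.Spec.F1.RM
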