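import Cfsg.Agent.R2.Spec.F1.ExcMovB
import Cfsg.Agent.ClosedExc.Rows
import Cfsg.Agent.Schreier.TwDFour
import Cfsg.Agent.S1070
import Cfsg.Agent.S1071

/-!
# Abelian moved subgroups of `²E₆(u)`, `³D₄(u)` (helper23)
-/

set_option autoImplicit false
set_option linter.unusedSectionVars false
set_option linter.unusedVariables false

namespace Cfsg.Agent.R2.Spec.F1.RM

open CoxeterSystem Cfsg.Agent.ChevalleyStructure.CoxeterGeom Cfsg.Agent.ChevalleyStructure.CoxeterGeomTypes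
  Cfsg.Agent.Tits.Roots Cfsg.Agent.Tits.Core
  Cfsg.Agent.Tits.RootComb Cfsg.Agent.Tits.Exchange Cfsg.Agent.Nodes.Reps Cfsg.Agent.Nodes.BNOf
  Cfsg.Agent.Nodes.StabComb Cfsg.Agent.Nodes.Bruhat Cfsg.Agent.Nodes.OppDec Cfsg.Agent.Nodes.LeviDec
  Cfsg.Agent.Nodes.Coroot Cfsg.Agent.KFacts.RgdSL
  Cfsg.Agent.KFacts.RgdTI Cfsg.Agent.KFacts.RgdCent Cfsg.Agent.H35.ExcIdx Cfsg.Agent.H35.Poin
  Cfsg.Agent.H169.RealTE6
  Cfsg.Agent.H696.GmnNeg
open Cfsg Cfsg.Lie Cfsg.Agent.ChevalleyStructure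
open Cfsg.Agent.R2.Spec.F1

/-- abelian root groups -/
theorem xab_of_simple {I W Y : Type*} [Fintype I] [DecidableEq I] [Group W] [Group Y] {M : CoxeterMatrix I}
    {cs : CoxeterSystem M W} {A : I → I → ℤ} {h : IsCartan M A} {p : ℕ} {T : Subgroup Y} {n : I → Y}
    {X : (I → ℤ) → Subgroup Y} [Finite W] (R : RGD cs h p T n X)
    (hab : ∀ i, ∀ u ∈ X (sr i), ∀ v ∈ X (sr i), u * v = v * u) {a : I → ℤ} (ha : IsRoot cs h a) :
    ∀ u ∈ X a, ∀ v ∈ X a, u * v = v * u := by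
  obtain ⟨w, i, rfl⟩ := ha
  obtain ⟨k, hk⟩ := exists_rp cs R.nsys w
  intro u hu v hv
  have h1 : ∀ y ∈ X (rep cs h w (sr i)), k⁻¹ * y * k ∈ X (sr i) := by
    intro y hy
    have := R.conj_mem' hk ((isRoot_sr cs h i).act w) hy
    rwa [rep_inv_apply] at this
  have h2 := hab i _ (h1 u hu) _ (h1 v hv)
  have e1 : u * v = k * ((k⁻¹ * u * k) * (k⁻¹ * v * k)) * k⁻¹ := by group
  have e2 : v * u = k * ((k⁻¹ * v * k) * (k⁻¹ * u * k)) * k⁻¹ := by group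
  rw [e1, e2, h2]

/-! ### `²E₆` -/

section E6

variable (K : Type) [Field K] [Fintype K] (p : ℕ) [hpf : Fact p.Prime] [CharP K p] {q : ℕ}

/-- the highest root -/
def hrT : Fin 4 → ℤ := ![2, 3, 4, 2]

theorem domT : Dom Nodes.RGDTwE6.A hrT := by
  have : ∀ i : Fin 4, 0 ≤ ∑ k, Nodes.RGDTwE6.A i k * hrT k := by decide +kernel
  exact this

theorem nonnegT : 0 ≤ hrT := by
  have : ∀ i, 0 ≤ hrT i := by decide
  exact this

theorem finT : Finite CoxeterMatrix.F₄.Group := Nodes.RGDFold.finite_W (hp := Nodes.RGDTwE6.hp)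
  CoxeterMatrix.F₄.toCoxeterSystem Nodes.RGDTwE6.isCartan Nodes.RGDTwE6.foldData

theorem rootT : IsRoot CoxeterMatrix.F₄.toCoxeterSystem Nodes.RGDTwE6.isCartan hrT :=
  isRoot_word _ _ [0, 1, 2, 1, 0, 3, 2] 1 (by decide +kernel)

include hpf in
/-- the order of the parabolic subgroup with Levi factor of type `²D₄` -/
theorem card_PT {φ : K →+* K} (hφ : ∀ x, φ x = x ^ q) (hqq : ∀ t : K, (t ^ q) ^ q = t) (hq : 1 < q)
    (hK : Fintype.card K = q ^ 2) :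
    Nat.card ↥(PJ CoxeterMatrix.F₄.toCoxeterSystem Nodes.RGDTwE6.isCartan (Nodes.RGDTwE6.T K q) (Nodes.RGDTwE6.X φ q)
      {j | j ∈ ([0, 1, 2] : List (Fin 4))}) =
      (((1 + q ^ 4) * (1 + q + q ^ 2)) * ((1 + q) * (1 + q ^ 3)) * (1 + q ^ 2)) *
      Nat.card ↥(RGD.B CoxeterMatrix.F₄.toCoxeterSystem Nodes.RGDTwE6.isCartan (Nodes.RGDTwE6.T K q)
        (Nodes.RGDTwE6.X φ q)) := by
  have hfin := finT
  have R := Nodes.RGDTwE6.rgd CoxeterMatrix.F₄.toCoxeterSystem hφ hqq p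
  have hc := card_X_tw (φ := φ) hφ hqq hq hK
  rw [← poly]
  exact card_PJ_chain R hc chain0 (J' := [1, 2]) (by decide) (card_PJ_chain R hc chain1 (J' := [2])
      (by decide) (card_PJ_chain R hc chain2 (J' := []) (by decide) (card_nil R)))

/-- **`²E₆(u)`.** -/
theorem movA_te6 (hq : IsPrimePow q) (hK : Fintype.card K = q ^ 2) {x : ℕ} (hx : x.Prime) (hx5 : 5 ≤ x) (hxp : x ≠ p)
    (he : orderOf ((q : ℕ) : ZMod x) ∈ ({1, 2, 3, 4, 6, 8} : Set ℕ)) :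
    MovA ↥(twistedE6 K q) p x := by
  have hsim := S1070.result hq hK
  have := hsim.1
  obtain ⟨φ, hφ, hqq⟩ := TwE6Basic.exists_frob hq hK
  have hfin := finT
  have R := Nodes.RGDTwE6.rgd CoxeterMatrix.F₄.toCoxeterSystem hφ hqq p
  have hG1 : RGD.Sup (Nodes.RGDTwE6.X φ q) {x | IsRoot CoxeterMatrix.F₄.toCoxeterSystem Nodes.RGDTwE6.isCartan x} = ⊤ :=
    Nodes.RGDTwE6.G1_eq_top CoxeterMatrix.F₄.toCoxeterSystem hφ hqq
  have hL : Cfsg.Agent.KFacts.TwESix.Pair.LRl (Nodes.RGDTwE6.rgd CoxeterMatrix.F₄.toCoxeterSystem hφ hqq p) :=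
    fun a ha hl => KFacts.TwESix.Grp.lr_long CoxeterMatrix.F₄.toCoxeterSystem hφ hqq p ha hl
  have hT : Nat.gcd 3 (q + 1) * Nat.card ↥(Nodes.RGDTwE6.T K q) = (q - 1) ^ 4 * (q + 1) ^ 2 := by
    rw [← Cfsg.Agent.S1102.result hq hK]
    congr 1
    exact Nat.card_congr (Subgroup.subgroupOfEquivOfLe inf_le_right).toEquiv
  have hd : ¬ x ∣ Nat.gcd 3 (q + 1) := not_dvd_72 hx hx5 ((Nat.gcd_dvd_left _ _).trans (by norm_num))
  have hTx : x ∣ Nat.card ↥(Nodes.RGDTwE6.T K q) ↔ x ∣ q - 1 ∨ x ∣ q + 1 := by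
    constructor
    · intro h
      have h1 : x ∣ (q - 1) ^ 4 * (q + 1) ^ 2 := by rw [← hT]; exact Dvd.dvd.mul_left h _
      rcases hx.dvd_mul.1 h1 with h2 | h2
      · exact Or.inl (hx.dvd_of_dvd_pow h2)
      · exact Or.inr (hx.dvd_of_dvd_pow h2)
    · intro h
      have h1 : x ∣ Nat.gcd 3 (q + 1) * Nat.card ↥(Nodes.RGDTwE6.T K q) := by
        rw [hT]
        rcases h with h | h
        · exact Dvd.dvd.mul_right (dvd_pow h (by norm_num)) _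
        · exact Dvd.dvd.mul_left (dvd_pow h (by norm_num)) _
      exact (hx.dvd_mul.1 h1).resolve_left hd
  have h2 : 2 ≤ q := hq.two_le
  by_cases hTd : x ∣ Nat.card ↥(Nodes.RGDTwE6.T K q)
  · exact movA_tor R (KFacts.RgdLieCharP.noCent_of_center hG1
      (KFacts.RgdLieCharP.center_eq_bot (exists_nc_of hsim.2)))
      (fun a ha u hu v hv => KFacts.TwESix.Irr.comm_X R hL ha hu hv) hx hTd
  · have L : LR R hrT := KFacts.TwESix.Grp.lr_long CoxeterMatrix.F₄.toCoxeterSystem hφ hqq p rootT (by decide +kernel)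
    refine movA_par R L (J := {j | j ∈ ([0, 1, 2] : List (Fin 4))}) (cpr_of_dom L.root domT)
      ⟨rootT, nonnegT, 3, by decide, by decide⟩ (hJ_of ![[], [0], [1, 0], []] (by decide +kernel)) hx ?_
      (not_dvd_B R hx hxp hTd)
    rw [card_PT K p hφ hqq (by omega) hK]
    refine Dvd.dvd.mul_right ?_ _
    have hn1 : ¬ x ∣ q - 1 := fun h => hTd (hTx.2 (Or.inl h))
    have hn2 : ¬ x ∣ q + 1 := fun h => hTd (hTx.2 (Or.inr h))
    have hcast : ∀ (P : ℤ) (N : ℕ), (x : ℤ) ∣ P → P ∣ (N : ℤ) → x ∣ N := fun P N h1 h2 =>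
      Int.natCast_dvd_natCast.1 (h1.trans h2)
    simp only [Set.mem_insert_iff, Set.mem_singleton_iff] at he
    rcases he with h | h | h | h | h | h
    · exfalso
      apply hn1
      have h3 := Cfsg.Agent.H378.CycTab.dvd1 h
      rw [Cfsg.Agent.H378.CycTab.pv1] at h3
      have h9 : ((q - 1 : ℕ) : ℤ) = (q : ℤ) - 1 := by push_cast [Nat.cast_sub (by omega : 1 ≤ q)]; ring
      rw [← h9] at h3
      exact Int.natCast_dvd_natCast.1 h3
    · exfalso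
      apply hn2
      have h3 := Cfsg.Agent.H378.CycTab.dvd2 hx h
      rw [Cfsg.Agent.H378.CycTab.pv2] at h3
      exact_mod_cast h3
    · refine hcast _ _ (Cfsg.Agent.H378.CycTab.dvd3 hx h) ?_
      rw [Cfsg.Agent.H378.CycTab.pv3]
      push_cast
      exact ⟨(1 + (q : ℤ) ^ 4) * ((1 + (q : ℤ)) * (1 + (q : ℤ) ^ 3)) * (1 + (q : ℤ) ^ 2), by ring⟩
    · refine hcast _ _ (Cfsg.Agent.H378.CycTab.dvd4 hx h) ?_
      rw [Cfsg.Agent.H378.CycTab.pv4]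
      push_cast
      exact ⟨((1 + (q : ℤ) ^ 4) * (1 + q + (q : ℤ) ^ 2)) * ((1 + (q : ℤ)) * (1 + (q : ℤ) ^ 3)), by ring⟩
    · refine hcast _ _ (Cfsg.Agent.H378.CycTab.dvd6 hx h) ?_
      rw [Cfsg.Agent.H378.CycTab.pv6]
      push_cast
      exact ⟨((1 + (q : ℤ) ^ 4) * (1 + q + (q : ℤ) ^ 2)) * ((1 + (q : ℤ)) * (1 + (q : ℤ))) * (1 + (q : ℤ) ^ 2), by ring⟩
    · refine hcast _ _ (Cfsg.Agent.H378.CycTab.dvd8 hx h) ?_
      rw [Cfsg.Agent.H378.CycTab.pv8]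
      push_cast
      exact ⟨(1 + q + (q : ℤ) ^ 2) * ((1 + (q : ℤ)) * (1 + (q : ℤ) ^ 3)) * (1 + (q : ℤ) ^ 2), by ring⟩

end E6

/-! ### `³D₄` -/

section D4

variable (K : Type) [Field K] [Fintype K] (p : ℕ) [hpf : Fact p.Prime] [CharP K p] {q : ℕ}

theorem domD : Dom Nodes.RGDTwD4.A Cfsg.Agent.H249.PPTwD4.z3 := by
  have : ∀ i : Fin 2, 0 ≤ ∑ k, Nodes.RGDTwD4.A i k * Cfsg.Agent.H249.PPTwD4.z3 k := by decide +kernel
  exact this

theorem nonnegD : 0 ≤ Cfsg.Agent.H249.PPTwD4.z3 := by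
  have : ∀ i, 0 ≤ Cfsg.Agent.H249.PPTwD4.z3 i := by decide
  exact this

theorem pathD : PathOK CoxeterMatrix.G₂ [0] [0] [] 0 := by constructor <;> decide +kernel

include hpf in
theorem xabD {φ : K →+* K} (hK : Fintype.card K = q ^ 3) (hφ : ∀ x, φ x = x ^ q) {a : Fin 2 → ℤ}
    (ha : IsRoot CoxeterMatrix.G₂.toCoxeterSystem Nodes.RGDTwD4.isCartan a) :
    ∀ u ∈ Nodes.RGDTwD4.X φ q a, ∀ v ∈ Nodes.RGDTwD4.X φ q a, u * v = v * u := by
  have hfin : Finite CoxeterMatrix.G₂.Group := Cfsg.Agent.H249.PPTwD4.finiteW CoxeterMatrix.G₂.toCoxeterSystem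
  have hle := D4Fixed.twisted_le_fix hK hφ
  refine xab_of_simple (Nodes.RGDTwD4.rgd CoxeterMatrix.G₂.toCoxeterSystem hK hφ p) (fun i => ?_) ha
  fin_cases i
  · intro u hu v hv
    have L : LR (Nodes.RGDTwD4.rgd CoxeterMatrix.G₂.toCoxeterSystem hK hφ p) Cfsg.Agent.H249.PPTwD4.z3 :=
      Cfsg.Agent.H249.PPTwD4.lr3 hK hφ p
    have h1 := L.act (CoxeterMatrix.G₂.toCoxeterSystem.simple 0 * CoxeterMatrix.G₂.toCoxeterSystem.simple 1)⁻¹
    rw [← Cfsg.Agent.H249.PPTwD4.rep3 CoxeterMatrix.G₂.toCoxeterSystem, rep_inv_apply] at h1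
    exact h1.comm _ (isRoot_sr _ _ 0) (by rw [cpr_self _ _ (isRoot_sr _ _ 0)]; norm_num) u hu v hv
  · intro u hu v hv
    obtain ⟨s, hs⟩ := (ClosedExc.TwD4.mem_X1 hφ hle u).1 hu
    obtain ⟨t, ht⟩ := (ClosedExc.TwD4.mem_X1 hφ hle v).1 hv
    apply Subtype.ext
    rw [Subgroup.coe_mul, Subgroup.coe_mul, hs, ht]
    exact Cfsg.Agent.Schreier.TwDFour.X_comm φ s t

/-- **`³D₄(u)`.** -/
theorem movA_td4 (hq : IsPrimePow q) (hK : Fintype.card K = q ^ 3) {x : ℕ} (hx : x.Prime) (hx5 : 5 ≤ x) (hxp : x ≠ p)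
    (he : orderOf ((q : ℕ) : ZMod x) ∈ ({1, 2, 3} : Set ℕ)) :
    MovA ↥(twistedD4 K q) p x := by
  have hsim := S1071.result hq hK
  have := hsim.1
  obtain ⟨φ, hφ⟩ := D4Fixed.exists_frob hq hK
  have hfin : Finite CoxeterMatrix.G₂.Group := Cfsg.Agent.H249.PPTwD4.finiteW CoxeterMatrix.G₂.toCoxeterSystem
  have R := Nodes.RGDTwD4.rgd CoxeterMatrix.G₂.toCoxeterSystem hK hφ p
  have hG1 : RGD.Sup (Nodes.RGDTwD4.X φ q) {x | IsRoot CoxeterMatrix.G₂.toCoxeterSystem Nodes.RGDTwD4.isCartan x} = ⊤ :=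
    Nodes.RGDTwD4.G1_eq_top CoxeterMatrix.G₂.toCoxeterSystem hK hφ
  have hT : Nat.card ↥(Nodes.RGDTwD4.T K q) = (q - 1) ^ 2 * (q ^ 2 + q + 1) := by
    rw [← Cfsg.Agent.S1106.result hq hK]
    exact Nat.card_congr (Subgroup.subgroupOfEquivOfLe inf_le_right).toEquiv
  have h2 : 2 ≤ q := hq.two_le
  have hcast : ∀ (P : ℤ) (N : ℕ), (x : ℤ) ∣ P → P ∣ (N : ℤ) → x ∣ N := fun P N h1 h2 =>
    Int.natCast_dvd_natCast.1 (h1.trans h2)
  by_cases hTd : x ∣ Nat.card ↥(Nodes.RGDTwD4.T K q)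
  · exact movA_tor R (KFacts.RgdLieCharP.noCent_of_center hG1
      (KFacts.RgdLieCharP.center_eq_bot (exists_nc_of hsim.2)))
      (fun a ha => xabD K p hK hφ ha) hx hTd
  · have L : LR R Cfsg.Agent.H249.PPTwD4.z3 := Cfsg.Agent.H249.PPTwD4.lr3 hK hφ p
    refine movA_par R L (J := {j | j ∈ ([0] : List (Fin 2))}) (cpr_of_dom L.root domD)
      ⟨L.root, nonnegD, 1, by decide, by decide⟩ (hJ_of ![[], []] (by decide +kernel)) hx ?_
      (not_dvd_B R hx hxp hTd)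
    have hc := Cfsg.Agent.H934.RowTwD4.card_X hφ (by omega) hK
    have hN := card_step R pathD (y := q) (fun i hi => by
      rw [List.mem_singleton] at hi
      rw [hc, hi, if_pos rfl]) (card_nil R)
    rw [hN]
    refine Dvd.dvd.mul_right (Dvd.dvd.mul_right ?_ _) _
    simp only [Set.mem_insert_iff, Set.mem_singleton_iff] at he
    have hn1 : ¬ x ∣ q - 1 := by
      intro h
      apply hTd
      rw [hT]
      exact Dvd.dvd.mul_right (dvd_pow h (by norm_num)) _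
    rcases he with h | h | h
    · exfalso
      apply hn1
      have h3 := Cfsg.Agent.H378.CycTab.dvd1 h
      rw [Cfsg.Agent.H378.CycTab.pv1] at h3
      have h9 : ((q - 1 : ℕ) : ℤ) = (q : ℤ) - 1 := by push_cast [Nat.cast_sub (by omega : 1 ≤ q)]; ring
      rw [← h9] at h3
      exact Int.natCast_dvd_natCast.1 h3
    · exact dvd_FA hx h le_rfl (by simp only [List.length_cons, List.length_nil]; omega) hn1 (by omega)
    · exfalso
      apply hTd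
      rw [hT]
      refine Dvd.dvd.mul_left ?_ _
      refine hcast _ _ (Cfsg.Agent.H378.CycTab.dvd3 hx h) ?_
      rw [Cfsg.Agent.H378.CycTab.pv3]
      push_cast
      exact dvd_rfl

end D4

end Cfsg.Agent.R2.Spec.F1.RM
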