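import Cfsg.Agent.R2.Spec.F1.Num

/-!
# The contradiction in the field case (helper23)

`Killer I i` : a list of sufficient conditions on a set `I` of classes; `killer_false` : if `X` has order `i` modulo the
prime `r ≥ 5` and `HC X r l` for all `l ∈ I`, `l ≠ i`, then `Killer I i` is false.
-/

set_option autoImplicit false
set_option linter.unusedSectionVars false
set_option linter.unusedVariables false

namespace Cfsg.Agent.R2.Spec.F1

theorem z17a : (2 : ZMod 17) ^ 4 + 2 ^ 3 + 2 ^ 2 + 2 ≠ 0 := by decide

theorem z17b : (2 : ZMod 17) ^ 4 + 2 ^ 3 + 2 ^ 2 + 2 ≠ 4 := by decide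

theorem z17c : ((2 : ZMod 17) ^ 3 ^ 1) ^ 2 + 2 ^ 3 ^ 1 ≠ 0 := by decide

theorem z17d : ((2 : ZMod 17) ^ 3 ^ 1) ^ 2 + 2 ^ 3 ^ 1 ≠ 2 := by decide

/-- the killers -/
def Killer (I : ℕ → Prop) (i : ℕ) : Prop :=
  (∃ k, 1 ≤ k ∧ I (2 ^ (k + 1)) ∧ 2 ^ (k + 1) ≠ i ∧ ¬ i ∣ 2 ^ k) ∨
  (∃ k, 1 ≤ k ∧ I (3 * 2 ^ (k + 1)) ∧ 3 * 2 ^ (k + 1) ≠ i ∧ ¬ i ∣ 2 ^ k) ∨
  (∃ k, 2 ≤ k ∧ I (5 * 2 ^ (k + 1)) ∧ 5 * 2 ^ (k + 1) ≠ i ∧ ¬ i ∣ 2 ^ (k + 2)) ∨
  (I 9 ∧ I 18 ∧ 9 ≠ i ∧ 18 ≠ i ∧ ¬ i ∣ 6) ∨
  (I 3 ∧ I 6 ∧ 3 ≠ i ∧ 6 ≠ i ∧ ¬ i ∣ 2) ∨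
  (i = 12 ∧ I 5 ∧ I 10) ∨
  (i = 8 ∧ I 5 ∧ I 10) ∨
  (i = 8 ∧ I 5 ∧ I 6) ∨
  (i = 8 ∧ I 6 ∧ I 9)

variable {X : ℤ} {r i : ℕ}

theorem pow_ne_of (hr : r.Prime) (hi : orderOf (X : ZMod r) = i) (h3 : 3 ≤ i) (m : ℕ) : (X : ZMod r) ^ m ≠ 0 := by
  have := Fact.mk hr
  intro h
  have h0 : (X : ZMod r) = 0 := by
    rcases Nat.eq_zero_or_pos m with h1 | h1
    · rw [h1, pow_zero] at h
      exact absurd h one_ne_zero
    · exact pow_eq_zero_iff h1.ne' |>.1 h
  have h1 : (0 : ZMod r) ^ i = 1 := by rw [← h0, ← hi]; exact pow_orderOf_eq_one _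
  rw [zero_pow (by omega)] at h1
  exact zero_ne_one h1

theorem small_ne (hr : r.Prime) (hr5 : 5 ≤ r) : (2 : ZMod r) ≠ 0 ∧ (3 : ZMod r) ≠ 0 := by
  constructor
  · have := ne_zero_of hr Nat.prime_two (by omega)
    push_cast at this
    exact this
  · have := ne_zero_of hr Nat.prime_three (by omega)
    push_cast at this
    exact this

theorem nat_prime_zero (hr : r.Prime) {m : ℕ} (hm : ((m : ℕ) : ZMod r) = 0) : r ∣ m := (ZMod.natCast_eq_zero_iff m r).1 hm

/-- **The killers.** -/
theorem killer_false (hr : r.Prime) (hr5 : 5 ≤ r) (hi : orderOf (X : ZMod r) = i) (h3 : 3 ≤ i) {I : ℕ → Prop}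
    (hI : ∀ l, I l → l ≠ i → HC X r l) : ¬ Killer I i := by
  have := Fact.mk hr
  have hr1 := hr.one_lt
  obtain ⟨h2', h3'⟩ := small_ne hr hr5
  have hne := pow_ne_of hr hi h3
  have hdv : ∀ {m : ℕ}, (X : ZMod r) ^ m = 1 → i ∣ m := fun hm => hi ▸ orderOf_dvd_of_pow_eq_one hm
  have hpi : (X : ZMod r) ^ i = 1 := by rw [← hi]; exact pow_orderOf_eq_one _
  have hir : i ∣ r - 1 := by
    apply hdv
    apply ZMod.pow_card_sub_one_eq_one
    have := hne 1
    rwa [pow_one] at this
  obtain ⟨a, ha⟩ : ∃ a : ZMod r, a = (X : ZMod r) := ⟨_, rfl⟩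
  -- `a ^ 4 = -1` for `i = 8`
  have h8 : i = 8 → a ^ 4 = -1 := by
    intro h
    rw [h] at hpi
    have h4 : a ^ 4 ≠ 1 := by
      intro h4
      rw [ha] at h4
      have := hdv h4
      rw [h] at this
      exact absurd this (by decide)
    have h5 : (a ^ 4 - 1) * (a ^ 4 + 1) = 0 := by rw [ha]; linear_combination hpi
    rcases mul_eq_zero.1 h5 with h6 | h6
    · exact absurd (sub_eq_zero.1 h6) h4
    · linear_combination h6
  rintro (⟨k, hk, hl, hli, hd⟩ | ⟨k, hk, hl, hli, hd⟩ | ⟨k, hk, hl, hli, hd⟩ | ⟨h9, h18, hi9, hi18, hd⟩ |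
    ⟨h3I, h6, hi3, hi6, hd⟩ | ⟨rfl, h5, h10⟩ | ⟨rfl, h5, h10⟩ | ⟨rfl, h5, h6⟩ | ⟨rfl, h6, h9⟩)
  · rcases hc_two hr1 hk (hI _ hl hli) with h1 | h1
    · exact hne _ h1
    · exact hd (hdv h1)
  · rcases mul_eq_zero.1 (hc_three hr1 hk (hI _ hl hli)) with h1 | h1
    · exact hne _ h1
    · exact hd (hdv (sub_eq_zero.1 h1))
  · rcases mul_eq_zero.1 (hc_five hr1 hk (hI _ hl hli)) with h1 | h1
    · rcases mul_eq_zero.1 h1 with h2 | h2
      · exact hne _ h2
      · exact hd ((hdv (sub_eq_zero.1 h2)).trans (pow_dvd_pow 2 (by omega)))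
    · apply hd
      apply hdv
      rw [show 2 ^ (k + 2) = 2 ^ k * 2 * 2 by ring, pow_mul, pow_mul]
      have h2 : ((X : ZMod r) ^ 2 ^ k) ^ 2 = -1 := by linear_combination h1
      rw [h2]
      ring
  · -- `9`, `18`
    obtain ⟨w, hw⟩ : ∃ w : ZMod r, w = (X : ZMod r) ^ 3 ^ 1 := ⟨_, rfl⟩
    have hw0 : w ≠ 0 := by rw [hw]; exact hne _
    have hw1 : w ^ 2 ≠ 1 := by
      intro h1
      rw [hw, ← pow_mul] at h1
      exact hd (hdv h1)
    have e1 := hc_pow_three hr1 (n := 1) (hI _ h9 hi9)
    have e2 := hc_two_pow_three hr1 (n := 1) (hI _ h18 hi18)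
    rw [← hw] at e1 e2
    have e1' : w = -2 := by
      rcases e1 with e1 | e1
      · exfalso
        have h1 : w * (w + 1) = 0 := by linear_combination e1
        rcases mul_eq_zero.1 h1 with h2 | h2
        · exact hw0 h2
        · apply hw1
          linear_combination (w - 1) * h2
      · have h1 : (w + 2) * (w - 1) = 0 := by linear_combination e1
        rcases mul_eq_zero.1 h1 with h2 | h2
        · linear_combination h2
        · exfalso
          apply hw1
          linear_combination (w + 1) * h2
    have e2' : w = 2 := by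
      rcases e2 with e2 | e2
      · exfalso
        have h1 : w * (w - 1) = 0 := by linear_combination e2
        rcases mul_eq_zero.1 h1 with h2 | h2
        · exact hw0 h2
        · apply hw1
          linear_combination (w + 1) * h2
      · have h1 : (w - 2) * (w + 1) = 0 := by linear_combination e2
        rcases mul_eq_zero.1 h1 with h2 | h2
        · linear_combination h2
        · exfalso
          apply hw1
          linear_combination (w - 1) * h2
    have h1 : (2 : ZMod r) * 2 = 0 := by linear_combination e1' - e2'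
    rcases mul_eq_zero.1 h1 with h2 | h2 <;> exact h2' h2
  · -- `3`, `6`
    obtain ⟨w, hw⟩ : ∃ w : ZMod r, w = (X : ZMod r) ^ 3 ^ 0 := ⟨_, rfl⟩
    have hw0 : w ≠ 0 := by rw [hw]; exact hne _
    have hw1 : w ^ 2 ≠ 1 := by
      intro h1
      rw [hw, ← pow_mul] at h1
      exact hd (hdv h1)
    have e1 := hc_pow_three hr1 (n := 0) (hI _ h3I hi3)
    have e2 := hc_two_pow_three hr1 (n := 0) (hI _ h6 hi6)
    rw [← hw] at e1 e2
    have e1' : w = -2 := by
      rcases e1 with e1 | e1
      · exfalso
        have h1 : w * (w + 1) = 0 := by linear_combination e1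
        rcases mul_eq_zero.1 h1 with h2 | h2
        · exact hw0 h2
        · apply hw1
          linear_combination (w - 1) * h2
      · have h1 : (w + 2) * (w - 1) = 0 := by linear_combination e1
        rcases mul_eq_zero.1 h1 with h2 | h2
        · linear_combination h2
        · exfalso
          apply hw1
          linear_combination (w + 1) * h2
    have e2' : w = 2 := by
      rcases e2 with e2 | e2
      · exfalso
        have h1 : w * (w - 1) = 0 := by linear_combination e2
        rcases mul_eq_zero.1 h1 with h2 | h2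
        · exact hw0 h2
        · apply hw1
          linear_combination (w + 1) * h2
      · have h1 : (w - 2) * (w + 1) = 0 := by linear_combination e2
        rcases mul_eq_zero.1 h1 with h2 | h2
        · linear_combination h2
        · exfalso
          apply hw1
          linear_combination (w - 1) * h2
    have h1 : (2 : ZMod r) * 2 = 0 := by linear_combination e1' - e2'
    rcases mul_eq_zero.1 h1 with h2 | h2 <;> exact h2' h2
  · -- `i = 12`
    have e5 := hc_5 hr1 (hI _ h5 (by norm_num))
    have e10 := hc_10 hr1 (hI _ h10 (by norm_num))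
    rw [← ha] at e5 e10
    -- `a ^ 4 = a ^ 2 - 1`
    have h6 : a ^ 6 = -1 := by
      have h4 : a ^ 6 ≠ 1 := by
        intro h4
        rw [ha] at h4
        exact absurd (hdv h4) (by decide)
      have h5 : (a ^ 6 - 1) * (a ^ 6 + 1) = 0 := by rw [ha]; linear_combination hpi
      rcases mul_eq_zero.1 h5 with h6 | h6
      · exact absurd (sub_eq_zero.1 h6) h4
      · linear_combination h6
    have h4 : a ^ 4 - a ^ 2 + 1 = 0 := by
      have h7 : (a ^ 2 + 1) * (a ^ 4 - a ^ 2 + 1) = 0 := by linear_combination h6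
      rcases mul_eq_zero.1 h7 with h8 | h8
      · exfalso
        have h9 : a ^ 4 = 1 := by linear_combination (a ^ 2 - 1) * h8
        rw [ha] at h9
        exact absurd (hdv h9) (by decide)
      · exact h8
    -- the sum
    have key : ∀ c : ZMod r, 2 * (a ^ 4 + a ^ 2) = c → (c = 0 → False) ∧ (c = 4 → False) ∧ (c = 8 → False) := by
      intro c hc
      have h7 : 4 * a ^ 2 = c + 2 := by linear_combination hc - 2 * h4
      have h8 : (c + 2) ^ 2 - 4 * (c + 2) + 16 = 0 := by
        rw [← h7]
        linear_combination 16 * h4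
      refine ⟨?_, ?_, ?_⟩
      · rintro rfl
        have h9 : ((12 : ℕ) : ZMod r) = 0 := by push_cast; linear_combination h8
        have h10 := nat_prime_zero hr h9
        have h11 := Nat.le_of_dvd (by norm_num) h10
        obtain ⟨c, hc⟩ := hir
        have : c = 0 ∨ 1 ≤ c := by omega
        rcases this with h12 | h12
        · rw [h12] at hc; omega
        · have : 12 ≤ r - 1 := by rw [hc]; omega
          omega
      · rintro rfl
        have h9 : ((28 : ℕ) : ZMod r) = 0 := by push_cast; linear_combination h8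
        have h10 := nat_prime_zero hr h9
        have h11 := Nat.le_of_dvd (by norm_num) h10
        obtain ⟨c, hc⟩ := hir
        have h12 : r = 1 + 12 * c := by omega
        have h13 : c ≤ 2 := by omega
        interval_cases c <;> subst h12 <;> revert hr h10 <;> decide
      · rintro rfl
        have h9 : ((76 : ℕ) : ZMod r) = 0 := by push_cast; linear_combination h8
        have h10 := nat_prime_zero hr h9
        have h11 := Nat.le_of_dvd (by norm_num) h10
        obtain ⟨c, hc⟩ := hir
        have h12 : r = 1 + 12 * c := by omega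
        have h13 : c ≤ 6 := by omega
        interval_cases c <;> subst h12 <;> revert hr h10 <;> norm_num
    rcases e5 with e5 | e5 <;> rcases e10 with e10 | e10
    · exact (key 0 (by linear_combination e5 + e10)).1 rfl
    · exact (key 4 (by linear_combination e5 + e10)).2.1 rfl
    · exact (key 4 (by linear_combination e5 + e10)).2.1 rfl
    · exact (key 8 (by linear_combination e5 + e10)).2.2 rfl
  · -- `i = 8`, `5`, `10`
    have e5 := hc_5 hr1 (hI _ h5 (by norm_num))
    have e10 := hc_10 hr1 (hI _ h10 (by norm_num))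
    rw [← ha] at e5 e10
    have h4 := h8 rfl
    have key : ∀ c : ZMod r, 2 * (a ^ 4 + a ^ 2) = c → (c = 0 → False) ∧ (c = 4 → False) ∧ (c = 8 → False) := by
      intro c hc
      have h7 : 2 * a ^ 2 = c + 2 := by linear_combination hc - 2 * h4
      have h8 : (c + 2) ^ 2 + 4 = 0 := by
        rw [← h7]
        linear_combination 4 * h4
      have h8r : r = 5 ∨ r = 13 ∨ r ∣ 8 ∨ r ∣ 40 ∨ r ∣ 104 → False := by
        intro hor
        obtain ⟨c, hc⟩ := hir
        have h12 : r = 1 + 8 * c := by omega
        rcases hor with h | h | h | h | h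
        · omega
        · omega
        · have h11 := Nat.le_of_dvd (by norm_num) h
          have h13 : c ≤ 0 := by omega
          interval_cases c
          omega
        · have h11 := Nat.le_of_dvd (by norm_num) h
          have h13 : c ≤ 4 := by omega
          interval_cases c <;> subst h12 <;> revert hr h <;> norm_num
        · have h11 := Nat.le_of_dvd (by norm_num) h
          have h13 : c ≤ 12 := by omega
          interval_cases c <;> subst h12 <;> revert hr h <;> norm_num
      refine ⟨?_, ?_, ?_⟩
      · rintro rfl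
        have h9 : ((8 : ℕ) : ZMod r) = 0 := by push_cast; linear_combination h8
        exact h8r (Or.inr (Or.inr (Or.inl (nat_prime_zero hr h9))))
      · rintro rfl
        have h9 : ((40 : ℕ) : ZMod r) = 0 := by push_cast; linear_combination h8
        exact h8r (Or.inr (Or.inr (Or.inr (Or.inl (nat_prime_zero hr h9)))))
      · rintro rfl
        have h9 : ((104 : ℕ) : ZMod r) = 0 := by push_cast; linear_combination h8
        exact h8r (Or.inr (Or.inr (Or.inr (Or.inr (nat_prime_zero hr h9)))))
    rcases e5 with e5 | e5 <;> rcases e10 with e10 | e10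
    · exact (key 0 (by linear_combination e5 + e10)).1 rfl
    · exact (key 4 (by linear_combination e5 + e10)).2.1 rfl
    · exact (key 4 (by linear_combination e5 + e10)).2.1 rfl
    · exact (key 8 (by linear_combination e5 + e10)).2.2 rfl
  · -- `i = 8`, `5`, `6`
    have e5 := hc_5 hr1 (hI _ h5 (by norm_num))
    have e6 := hc_two_pow_three hr1 (n := 0) (hI _ h6 (by norm_num))
    rw [pow_zero, pow_one] at e6
    rw [← ha] at e5 e6
    have h4 := h8 rfl
    have ha2 : a = 2 := by
      rcases e6 with e6 | e6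
      · exfalso
        have h1 : a * (a - 1) = 0 := by linear_combination e6
        rcases mul_eq_zero.1 h1 with h2 | h2
        · rw [h2] at h4
          apply one_ne_zero (α := ZMod r)
          linear_combination h4
        · have h5 : a = 1 := by linear_combination h2
          rw [h5] at h4
          apply h2'
          linear_combination h4
      · have h1 : (a - 2) * (a + 1) = 0 := by linear_combination e6
        rcases mul_eq_zero.1 h1 with h2 | h2
        · linear_combination h2
        · exfalso
          have h5 : a = -1 := by linear_combination h2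
          rw [h5] at h4
          apply h2'
          linear_combination h4
    rw [ha2] at h4 e5
    have h17 : ((17 : ℕ) : ZMod r) = 0 := by push_cast; linear_combination h4
    have hr17 : r = 17 := (Nat.prime_dvd_prime_iff_eq hr (by norm_num)).1 (nat_prime_zero hr h17)
    subst hr17
    rcases e5 with e5 | e5
    · exact z17a e5
    · exact z17b e5
  · -- `i = 8`, `6`, `9`
    have e9 := hc_pow_three hr1 (n := 1) (hI _ h9 (by norm_num))
    have e6 := hc_two_pow_three hr1 (n := 0) (hI _ h6 (by norm_num))
    rw [pow_zero, pow_one] at e6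
    rw [← ha] at e9 e6
    have h4 := h8 rfl
    have ha2 : a = 2 := by
      rcases e6 with e6 | e6
      · exfalso
        have h1 : a * (a - 1) = 0 := by linear_combination e6
        rcases mul_eq_zero.1 h1 with h2 | h2
        · rw [h2] at h4
          apply one_ne_zero (α := ZMod r)
          linear_combination h4
        · have h5 : a = 1 := by linear_combination h2
          rw [h5] at h4
          apply h2'
          linear_combination h4
      · have h1 : (a - 2) * (a + 1) = 0 := by linear_combination e6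
        rcases mul_eq_zero.1 h1 with h2 | h2
        · linear_combination h2
        · exfalso
          have h5 : a = -1 := by linear_combination h2
          rw [h5] at h4
          apply h2'
          linear_combination h4
    rw [ha2] at h4 e9
    have h17 : ((17 : ℕ) : ZMod r) = 0 := by push_cast; linear_combination h4
    have hr17 : r = 17 := (Nat.prime_dvd_prime_iff_eq hr (by norm_num)).1 (nat_prime_zero hr h17)
    subst hr17
    rcases e9 with e9 | e9
    · exact z17c e9
    · exact z17d e9

end Cfsg.Agent.R2.Spec.F1
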