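import Cfsg.Agent.R2.Spec.F1.KAdj
import Cfsg.Agent.H425.MovNamed

/-!
# Abelian moved subgroups of the classical groups (helper23)

* `MovA S v w` : an element of order `w` normalizes an abelian `v`-subgroup without centralizing it;
* `movA_psl`, `movA_psp`, `movA_plus`, `movA_odd`, `movA_minus` : the linear part (Siegel parabolic subgroup), all
  characteristics.
-/

set_option autoImplicit false
set_option linter.unusedSectionVars false

namespace Cfsg.Agent.R2.Spec.F1

open Subgroup Matrix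
open Cfsg.Agent.H425.Siegel

universe u

/-- an element of order `w` normalizes an abelian `v`-subgroup without centralizing it -/
def MovA (S : Type*) [Group S] (v w : ℕ) : Prop :=
  ∃ (P : Subgroup S) (x : S), IsPGroup v P ∧ orderOf x = w ∧ (∀ a ∈ P, x * a * x⁻¹ ∈ P) ∧ (∃ a ∈ P, x * a ≠ a * x) ∧
    ∀ a ∈ P, ∀ b ∈ P, a * b = b * a

theorem MovA.movW {S : Type*} [Group S] {v w : ℕ} (h : MovA S v w) : MovW S v w := by
  obtain ⟨P, x, hP, hx, hn, ha, hab⟩ := h
  exact ⟨P, x, hP, hx, hn, ha, Or.inr (Or.inr hab)⟩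

theorem MovA.mov {S : Type*} [Group S] {v w : ℕ} (h : MovA S v w) : Cfsg.Agent.H425.KStep.Mov S v w := by
  obtain ⟨P, x, hP, hx, hn, ha, -⟩ := h
  exact ⟨P, x, hP, hx, hn, ha⟩

theorem MovA.map {S T : Type*} [Group S] [Group T] (f : S →* T) (hf : Function.Injective f) {v w : ℕ} (h : MovA S v w) :
    MovA T v w := by
  obtain ⟨P, x, hP, hx, hn, ⟨a, ha, hne⟩, hv⟩ := h
  refine ⟨P.map f, f x, hP.map f, by rw [orderOf_injective f hf, hx], ?_, ⟨f a, ⟨a, ha, rfl⟩, ?_⟩, ?_⟩
  · rintro _ ⟨b, hb, rfl⟩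
    exact ⟨x * b * x⁻¹, hn b hb, by rw [map_mul, map_mul, map_inv]⟩
  · intro h
    rw [← map_mul, ← map_mul] at h
    exact hne (hf h)
  · rintro _ ⟨b, hb, rfl⟩ _ ⟨c, hc, rfl⟩
    rw [← map_mul, ← map_mul, hv b hb c hc]

theorem MovA.congr {S T : Type*} [Group S] [Group T] (e : S ≃* T) {v w : ℕ} : MovA S v w ↔ MovA T v w :=
  ⟨fun h => h.map e.toMonoidHom e.injective, fun h => h.map e.symm.toMonoidHom e.symm.injective⟩

theorem movA_of_homs {O A V : Type*} [Group O] [Group A] [AddCommGroup V] {p r : ℕ} (hV : ∀ v : V, p • v = 0)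
    (d : A →* O) (u : Multiplicative V →* O) (hu : Function.Injective u) (act : A → V → V)
    (h : ∀ a v, d a * u (Multiplicative.ofAdd v) * (d a)⁻¹ = u (Multiplicative.ofAdd (act a v))) {a : A}
    (ha : orderOf (d a) = r) {v : V} (hv : act a v ≠ v) : MovA O p r := by
  refine ⟨u.range, d a, ?_, ha, ?_, ⟨u (Multiplicative.ofAdd v), ⟨_, rfl⟩, ?_⟩, ?_⟩
  · rintro ⟨_, w, rfl⟩
    refine ⟨1, Subtype.ext ?_⟩
    change (u w) ^ p ^ 1 = 1
    rw [pow_one, ← map_pow]
    have h1 : w ^ p = 1 := hV (Multiplicative.toAdd w)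
    rw [h1, map_one]
  · rintro _ ⟨w, rfl⟩
    exact ⟨Multiplicative.ofAdd (act a (Multiplicative.toAdd w)), (h a (Multiplicative.toAdd w)).symm⟩
  · intro hc
    apply hv
    have h1 := h a v
    rw [hc, mul_inv_cancel_right] at h1
    exact (Multiplicative.ofAdd.injective (hu h1)).symm
  · rintro _ ⟨b, rfl⟩ _ ⟨c, rfl⟩
    rw [← map_mul, ← map_mul, mul_comm]

/-- passing to a normal subgroup containing the elements of order `w` -/
theorem MovA.sub {O : Type*} [Group O] (N : Subgroup O) [hNn : N.Normal] {v w : ℕ} (hN : ∀ g : O, g ^ w = 1 → g ∈ N)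
    (hv : v.Prime) (hw : w.Prime) (hvw : v ≠ w) (h : MovA O v w) : MovA N v w := by
  obtain ⟨P, x, hP, hx, hn, ⟨a, ha, hne⟩, hab⟩ := h
  have hxN : x ∈ N := hN x (by rw [← hx, pow_orderOf_eq_one])
  have hP' : IsPGroup v (P.subgroupOf N) := by
    rintro ⟨⟨b, hbN⟩, hb⟩
    obtain ⟨k, hk⟩ := hP ⟨b, hb⟩
    have h1 : b ^ v ^ k = 1 := congrArg Subtype.val hk
    exact ⟨k, Subtype.ext (Subtype.ext h1)⟩
  refine ⟨P.subgroupOf N, ⟨x, hxN⟩, hP', by rw [Subgroup.orderOf_mk, hx], fun b hb => hn b hb, ?_,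
    fun b hb c hc => Subtype.ext (hab b hb c hc)⟩
  by_contra hcon
  push Not at hcon
  apply hne
  obtain ⟨c, hc⟩ : ∃ c : O, c = x * a * x⁻¹ * a⁻¹ := ⟨_, rfl⟩
  have hcP : c ∈ P := hc ▸ P.mul_mem (hn a ha) (P.inv_mem ha)
  have hcN : c ∈ N := by
    rw [hc]
    have h1 : x * a * x⁻¹ * a⁻¹ = x * (a * x⁻¹ * a⁻¹) := by group
    rw [h1]
    exact N.mul_mem hxN (hNn.conj_mem _ (N.inv_mem hxN) a)
  have hxc : x * c = c * x := congrArg Subtype.val (hcon ⟨c, hcN⟩ hcP)
  have hpow : ∀ k : ℕ, x ^ k * a * (x ^ k)⁻¹ = c ^ k * a := by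
    intro k
    induction k with
    | zero => simp
    | succ k ih =>
      have h1 : x ^ (k + 1) * a * (x ^ (k + 1))⁻¹ = x * (x ^ k * a * (x ^ k)⁻¹) * x⁻¹ := by
        rw [pow_succ']; group
      have h2 : x * c ^ k = c ^ k * x := (Commute.pow_right (show Commute x c from hxc) k).eq
      have h3 : x * a * x⁻¹ = c * a := by rw [hc]; group
      rw [h1, ih, ← mul_assoc, h2, mul_assoc (c ^ k), mul_assoc (c ^ k), h3, ← mul_assoc, pow_succ]
  have h1 := hpow w
  rw [← hx, pow_orderOf_eq_one, one_mul, inv_one, mul_one, right_eq_mul, hx] at h1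
  obtain ⟨k, hk⟩ := hP ⟨c, hcP⟩
  have hk' : c ^ v ^ k = 1 := congrArg Subtype.val hk
  have h2 : Nat.Coprime w (v ^ k) := Nat.Coprime.pow_right _ ((Nat.coprime_primes hw hv).2 hvw.symm)
  have h3 : c = 1 := by
    have h4 := orderOf_dvd_of_pow_eq_one h1
    have h5 := orderOf_dvd_of_pow_eq_one hk'
    exact orderOf_eq_one_iff.1 (Nat.eq_one_of_dvd_coprimes h2 h4 h5)
  rw [h3, eq_comm, mul_inv_eq_one, mul_inv_eq_iff_eq_mul] at hc
  exact hc

/-- passing to the quotient by a normal subgroup of order prime to `v` -/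
theorem MovA.quot {O : Type*} [Group O] [Finite O] (Z : Subgroup O) [Z.Normal] {v w : ℕ} (hZ : ¬ v ∣ Nat.card Z)
    (hv : v.Prime) (hw : w.Prime) (h : MovA O v w) : MovA (O ⧸ Z) v w := by
  obtain ⟨P, x, hP, hx, hn, ⟨a, ha, hne⟩, hab⟩ := h
  have hc : QuotientGroup.mk' Z x * QuotientGroup.mk' Z a ≠ QuotientGroup.mk' Z a * QuotientGroup.mk' Z x := by
    intro hc
    have h1 : (x * a * x⁻¹) * a⁻¹ ∈ Z := by
      rw [← QuotientGroup.eq_one_iff]
      change QuotientGroup.mk' Z ((x * a * x⁻¹) * a⁻¹) = 1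
      rw [map_mul, map_mul, map_mul, map_inv, map_inv, hc]
      group
    have h2 : (x * a * x⁻¹) * a⁻¹ ∈ P := P.mul_mem (hn a ha) (P.inv_mem ha)
    obtain ⟨k, hk⟩ := hP ⟨_, h2⟩
    have h3 : orderOf ((x * a * x⁻¹) * a⁻¹) ∣ Nat.card Z := by
      rw [← Subgroup.orderOf_mk _ h1]
      exact orderOf_dvd_natCard _
    have h4 : orderOf ((x * a * x⁻¹) * a⁻¹) ∣ v ^ k := orderOf_dvd_of_pow_eq_one (congrArg Subtype.val hk)
    have h5 : Nat.Coprime (Nat.card Z) (v ^ k) :=
      Nat.Coprime.pow_right _ ((Nat.Prime.coprime_iff_not_dvd hv).2 hZ).symm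
    have h6 := orderOf_eq_one_iff.1 (Nat.eq_one_of_dvd_coprimes h5 h3 h4)
    rw [mul_inv_eq_one, mul_inv_eq_iff_eq_mul] at h6
    exact hne h6
  have : Fact w.Prime := ⟨hw⟩
  refine ⟨P.map (QuotientGroup.mk' Z), QuotientGroup.mk' Z x, hP.map _, ?_, ?_, ⟨QuotientGroup.mk' Z a, ⟨a, ha, rfl⟩, hc⟩, ?_⟩
  · refine orderOf_eq_prime ?_ ?_
    · rw [← map_pow, ← hx, pow_orderOf_eq_one, map_one]
    · intro h1
      apply hc
      rw [h1, one_mul, mul_one]
  · rintro _ ⟨b, hb, rfl⟩
    exact ⟨x * b * x⁻¹, hn b hb, by rw [map_mul, map_mul, map_inv]⟩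
  · rintro _ ⟨b, hb, rfl⟩ _ ⟨c, hc, rfl⟩
    rw [← map_mul, ← map_mul, hab b hb c hc]

/-! ### the linear groups -/

section sl

variable {F : Type*} [Field F] {k : ℕ}

theorem movA_sl [Fintype F] {p : ℕ} [CharP F p] {e r : ℕ} (hr : r.Prime) (he1 : 1 ≤ e) (he : e ≤ k)
    (h : r ∣ Fintype.card F ^ e - 1) (h1 : ¬ r ∣ Fintype.card F - 1) :
    MovA (Matrix.SpecialLinearGroup (Fin (k + 1)) F) p r := by
  obtain ⟨A, hA⟩ := exists_gl (F := F) hr he1 he h
  obtain ⟨B, hne⟩ : ∃ B : Matrix (Fin k) (Fin 1) F,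
      (A : Matrix (Fin k) (Fin k) F).det • ((A : Matrix (Fin k) (Fin k) F) * B) ≠ B := by
    by_contra hcon
    push Not at hcon
    set c := (A : Matrix (Fin k) (Fin k) F).det with hc
    have hc0 : c ≠ 0 := det_ne A
    have h2 : (A : Matrix (Fin k) (Fin k) F) = c⁻¹ • 1 := by
      ext i j
      have h3 := congrFun (congrFun (hcon (Matrix.single j 0 1)) i) 0
      rw [Matrix.smul_apply, Matrix.mul_single_apply_same, smul_eq_mul, mul_one] at h3
      rw [Matrix.smul_apply, smul_eq_mul]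
      by_cases hij : i = j
      · subst hij
        rw [Matrix.single_apply_same] at h3
        rw [Matrix.one_apply_eq, mul_one]
        exact eq_inv_of_mul_eq_one_right h3
      · rw [Matrix.single_apply_of_row_ne (Ne.symm hij)] at h3
        rw [Matrix.one_apply_ne hij, mul_zero]
        exact (mul_eq_zero.1 h3).resolve_left hc0
    apply h1
    rw [← hA]
    apply orderOf_dvd_of_pow_eq_one
    apply Units.ext
    rw [Units.val_pow_eq_pow_val, h2, Units.val_one, smul_pow, one_pow, inv_pow, FiniteField.pow_card_sub_one_eq_one c hc0,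
      inv_one, one_smul]
  refine movA_of_homs (V := Matrix (Fin k) (Fin 1) F) (A := GL (Fin k) F) (p := p) ?_ (dgL k F) (uniL k F) uniL_injective
    (fun A B => (A : Matrix (Fin k) (Fin k) F).det • ((A : Matrix (Fin k) (Fin k) F) * B)) ?_ (a := A)
    (by rw [orderOf_injective _ dgL_injective, hA]) (v := B) hne
  · intro v
    rw [← Nat.cast_smul_eq_nsmul F, CharP.cast_eq_zero, zero_smul]
  · intro A B
    rw [mul_inv_eq_iff_eq_mul]
    apply Subtype.ext
    change rX k F (lv A) * rX k F _ = rX k F _ * rX k F (lv A)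
    rw [← map_mul, ← map_mul]
    exact congrArg (rX k F) (conj_L A B)

theorem movA_psl [Fintype F] {p : ℕ} [CharP F p] (hp : p.Prime) {e r : ℕ} (hr : r.Prime) (he1 : 1 ≤ e) (he : e ≤ k)
    (h : r ∣ Fintype.card F ^ e - 1) (h1 : ¬ r ∣ Fintype.card F - 1) :
    MovA (Matrix.ProjectiveSpecialLinearGroup (Fin (k + 1)) F) p r :=
  have : Finite (Matrix.SpecialLinearGroup (Fin (k + 1)) F) := Finite.of_injective _ Subtype.val_injective
  MovA.quot _ (center_sl hp) hp hr (movA_sl hr he1 he h h1)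

end sl

/-! ### the symplectic and orthogonal groups -/

section mat

variable {F : Type*} [Field F] {m : ℕ}

/-- an alternating matrix moved by `A` -/
theorem exists_alt (hm : 3 ≤ m) {A : GL (Fin m) F} (hA : A ^ 2 ≠ 1) :
    ∃ B : Matrix (Fin m) (Fin m) F, (Bᵀ = -B ∧ ∀ i, B i i = 0) ∧ actM A B ≠ B := by
  by_contra hcon
  push Not at hcon
  -- the matrices `E_ij - E_ji` generate, so that `A` fixes them all: reuse the skew argument
  set M : Matrix (Fin m) (Fin m) F := (A : Matrix (Fin m) (Fin m) F) with hM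
  set D : Matrix (Fin m) (Fin m) F := ((A⁻¹ : GL (Fin m) F) : Matrix (Fin m) (Fin m) F)ᵀ with hD
  have key : ∀ i j : Fin m, i ≠ j → M * (single i j 1 - single j i 1) = (single i j 1 - single j i 1) * D := by
    intro i j hij
    refine mul_eq_of_act (hcon _ ⟨?_, ?_⟩)
    · rw [Matrix.transpose_sub, Matrix.transpose_single, Matrix.transpose_single, neg_sub]
    · intro l
      rw [Matrix.sub_apply]
      rw [Matrix.single_apply_of_ne _ _ _ _ _ (by rintro ⟨rfl, rfl⟩; exact hij rfl),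
        Matrix.single_apply_of_ne _ _ _ _ _ (by rintro ⟨rfl, rfl⟩; exact hij rfl), sub_zero]
  have third : ∀ i k : Fin m, ∃ j : Fin m, j ≠ i ∧ j ≠ k := by
    intro i k
    have : 2 < Fintype.card (Fin m) := by rw [Fintype.card_fin]; omega
    by_contra hc
    push Not at hc
    have h1 : (Finset.univ : Finset (Fin m)) ⊆ {i, k} := by
      intro j _
      rw [Finset.mem_insert, Finset.mem_singleton]
      by_cases hj : j = i
      · exact Or.inl hj
      · exact Or.inr (hc j hj)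
    have h2 := Finset.card_le_card h1
    have h3 := Finset.card_le_two (a := i) (b := k)
    rw [Finset.card_univ] at h2
    omega
  have hdiag : ∀ k i : Fin m, k ≠ i → M k i = 0 := by
    intro k i hki
    obtain ⟨j, hji, hjk⟩ := third i k
    have h1 := congrFun (congrFun (key i j hji.symm) k) j
    rw [Matrix.mul_sub, Matrix.sub_mul, Matrix.sub_apply, Matrix.sub_apply] at h1
    rw [Matrix.mul_single_apply_same, Matrix.mul_single_apply_of_ne _ _ _ _ _ hji,
      Matrix.single_mul_apply_of_ne _ _ _ _ _ hki, Matrix.single_mul_apply_of_ne _ _ _ _ _ (Ne.symm hjk)] at h1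
    simpa using h1
  have hval : ∀ i j : Fin m, i ≠ j → M i i = D j j := by
    intro i j hij
    have h1 := congrFun (congrFun (key i j hij) i) j
    rw [Matrix.mul_sub, Matrix.sub_mul, Matrix.sub_apply, Matrix.sub_apply] at h1
    rw [Matrix.mul_single_apply_same, Matrix.mul_single_apply_of_ne _ _ _ _ _ (Ne.symm hij),
      Matrix.single_mul_apply_same, Matrix.single_mul_apply_of_ne _ _ _ _ _ hij] at h1
    simpa using h1
  have hinv : ∀ i : Fin m, M i i * D i i = 1 := by
    intro i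
    have h1 : M * Dᵀ = 1 := by
      rw [hD, Matrix.transpose_transpose, hM, ← Units.val_mul, mul_inv_cancel, Units.val_one]
    have h2 := congrFun (congrFun h1 i) i
    rw [Matrix.one_apply_eq, Matrix.mul_apply, Finset.sum_eq_single i] at h2
    · rwa [Matrix.transpose_apply] at h2
    · intro k _ hk
      rw [hdiag i k (Ne.symm hk), zero_mul]
    · intro h
      exact absurd (Finset.mem_univ i) h
  apply hA
  have hsq : ∀ i : Fin m, M i i * M i i = 1 := by
    intro i
    obtain ⟨j, hji, -⟩ := third i i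
    obtain ⟨k, hki, hkj⟩ := third i j
    have h1 := hval i j (Ne.symm hji)
    have h2 := hval k j hkj
    have h3 := hval k i hki
    have h4 : M i i = D i i := by rw [h1, ← h2, h3]
    have h5 := hinv i
    rwa [← h4] at h5
  apply Units.ext
  rw [Units.val_pow_eq_pow_val, ← hM, Units.val_one, pow_two]
  ext i j
  rw [Matrix.mul_apply]
  by_cases hij : i = j
  · subst hij
    rw [Matrix.one_apply_eq, Finset.sum_eq_single i]
    · exact hsq i
    · intro k _ hk
      rw [hdiag i k (Ne.symm hk), zero_mul]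
    · intro h
      exact absurd (Finset.mem_univ i) h
  · rw [Matrix.one_apply_ne hij]
    apply Finset.sum_eq_zero
    intro k _
    by_cases hk : k = i
    · subst hk
      rw [hdiag k j hij, mul_zero]
    · rw [hdiag i k (Ne.symm hk), zero_mul]

/-- alternating matrices -/
def alt (m : ℕ) (F : Type*) [Field F] : AddSubgroup (Matrix (Fin m) (Fin m) F) where
  carrier := {B | Bᵀ = -B ∧ ∀ i, B i i = 0}
  add_mem' := by
    rintro a b ⟨ha, ha'⟩ ⟨hb, hb'⟩
    refine ⟨?_, fun i => ?_⟩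
    · rw [Matrix.transpose_add, ha, hb, neg_add]
    · rw [Matrix.add_apply, ha', hb', add_zero]
  zero_mem' := ⟨by rw [Matrix.transpose_zero, neg_zero], fun i => rfl⟩
  neg_mem' := by
    rintro a ⟨ha, ha'⟩
    refine ⟨?_, fun i => ?_⟩
    · rw [Matrix.transpose_neg, ha]
    · rw [Matrix.neg_apply, ha', neg_zero]

/-- the quadratic form of an alternating matrix vanishes -/
theorem alt_form {B : Matrix (Fin m) (Fin m) F} (hB : Bᵀ = -B ∧ ∀ i, B i i = 0) (v : Fin m → F) :
    (B *ᵥ v) ⬝ᵥ v = 0 := by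
  obtain ⟨h1, h2⟩ := hB
  have h3 : ∀ i j, B j i = - B i j := fun i j => by
    have := congrFun (congrFun h1 i) j
    rwa [Matrix.transpose_apply, Matrix.neg_apply] at this
  simp only [dotProduct, Matrix.mulVec]
  have h4 : ∑ i, (∑ j, B i j * v j) * v i = ∑ p ∈ (Finset.univ : Finset (Fin m × Fin m)), B p.1 p.2 * v p.2 * v p.1 := by
    rw [Finset.univ_product_univ.symm, Finset.sum_product]
    refine Finset.sum_congr rfl fun i _ => ?_
    rw [Finset.sum_mul]
  rw [h4]
  refine Finset.sum_involution (fun p _ => (p.2, p.1)) ?_ ?_ ?_ ?_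
  · rintro ⟨i, j⟩ _
    change B i j * v j * v i + B j i * v i * v j = 0
    rw [h3 i j]
    ring
  · rintro ⟨i, j⟩ _ hne heq
    apply hne
    have h5 : j = i := congrArg Prod.fst heq
    change B i j * v j * v i = 0
    rw [h5, h2, zero_mul, zero_mul]
  · intro _ _
    exact Finset.mem_univ _
  · rintro ⟨i, j⟩ _
    rfl

theorem uniA_mem {B : Matrix (Fin m) (Fin m) F} (hB : Bᵀ = -B ∧ ∀ i, B i i = 0) :
    uni m F (Multiplicative.ofAdd B) ∈ Cfsg.isometryGroup F (Cfsg.quadFormPlus m F) := by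
  rw [Cfsg.Agent.LieClassical.OmegaReindex.mem_isometryGroup]
  intro v
  rw [Cfsg.Agent.H425.Torus.quadFormPlus_eq_dotProduct, Cfsg.Agent.H425.Torus.quadFormPlus_eq_dotProduct, coe_uni, fromBlocks_mulVec]
  simp only [Matrix.zero_mulVec, zero_add, Sum.elim_comp_inl, Sum.elim_comp_inr, Matrix.one_mulVec]
  rw [add_dotProduct, alt_form hB, add_zero]

/-- the unipotent radical -/
def uniA (m : ℕ) (F : Type*) [Field F] :
    Multiplicative (alt m F) →* Cfsg.isometryGroup F (Cfsg.quadFormPlus m F) where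
  toFun B := ⟨uni m F (Multiplicative.ofAdd ((Multiplicative.toAdd B : alt m F) : Matrix (Fin m) (Fin m) F)),
    uniA_mem (Multiplicative.toAdd B : alt m F).2⟩
  map_one' := by
    apply Subtype.ext
    exact map_one (uni m F)
  map_mul' A B := by
    apply Subtype.ext
    exact map_mul (uni m F) _ _

theorem uniA_injective : Function.Injective (uniA m F) := by
  intro A B h
  have h1 := congrArg (fun g : Cfsg.isometryGroup F (Cfsg.quadFormPlus m F) =>
    ((g : GL (Fin m ⊕ Fin m) F) : Matrix (Fin m ⊕ Fin m) (Fin m ⊕ Fin m) F)) h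
  have h3 : fromBlocks 1 ((Multiplicative.toAdd A : alt m F) : Matrix (Fin m) (Fin m) F) 0 1 =
    fromBlocks 1 ((Multiplicative.toAdd B : alt m F) : Matrix (Fin m) (Fin m) F) 0 1 := h1
  exact Subtype.ext (fromBlocks_inj.1 h3).2.1

theorem act_alt (A : GL (Fin m) F) {B : Matrix (Fin m) (Fin m) F} (hB : Bᵀ = -B ∧ ∀ i, B i i = 0) :
    (actM A B)ᵀ = -actM A B ∧ ∀ i, actM A B i i = 0 := by
  refine ⟨by rw [actM_transpose, hB.1, actM_neg], fun i => ?_⟩
  -- `(A B Aᵀ)_{ii}` is the value of the form at the `i`-th row of `A`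
  have h1 : actM A B i i = (B *ᵥ ((A : Matrix (Fin m) (Fin m) F) i)) ⬝ᵥ ((A : Matrix (Fin m) (Fin m) F) i) := by
    rw [actM, Matrix.mul_assoc, Matrix.mul_apply, dotProduct]
    refine Finset.sum_congr rfl fun j _ => ?_
    rw [mul_comm]
    congr 1
  rw [h1, alt_form hB]

/-- **the isometry group of plus type** -/
theorem movA_isom [Fintype F] {p : ℕ} [CharP F p] (hm : 3 ≤ m) {e r : ℕ} (hr : r.Prime)
    (hr2 : r ≠ 2) (he1 : 1 ≤ e) (he : e ≤ m) (h : r ∣ Fintype.card F ^ e - 1) :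
    MovA (Cfsg.isometryGroup F (Cfsg.quadFormPlus m F)) p r := by
  obtain ⟨A, hA⟩ := exists_gl (F := F) hr he1 he h
  obtain ⟨B, hB, hne⟩ := exists_alt hm (sq_ne_one hr hr2 hA)
  refine movA_of_homs (V := alt m F) (A := GL (Fin m) F) (p := p) ?_ (Cfsg.Agent.H425.Torus.dg m F) (uniA m F) uniA_injective
    (fun A B => ⟨actM A B, act_alt A B.2⟩) ?_ (a := A)
    (by rw [orderOf_injective _ Cfsg.Agent.H425.Torus.dg_injective, hA]) (v := ⟨B, hB⟩) ?_
  · intro v
    apply Subtype.ext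
    change p • (v : Matrix (Fin m) (Fin m) F) = 0
    rw [← Nat.cast_smul_eq_nsmul F, CharP.cast_eq_zero, zero_smul]
  · intro A B
    rw [mul_inv_eq_iff_eq_mul]
    apply Subtype.ext
    apply Units.ext
    exact conj_blocks A B
  · intro h
    exact hne (congrArg Subtype.val h)

/-- **the symplectic group** -/
theorem movA_sp [Fintype F] {p : ℕ} [CharP F p] {e r : ℕ} (hr : r.Prime)
    (hr2 : r ≠ 2) (he1 : 1 ≤ e) (he : e ≤ m) (h : r ∣ Fintype.card F ^ e - 1) :
    MovA (Matrix.symplecticGroup (Fin m) F) p r := by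
  obtain ⟨A, hA⟩ := exists_gl (F := F) hr he1 he h
  obtain ⟨B, hB, hne⟩ := exists_sym (sq_ne_one hr hr2 hA)
  have hact : ∀ (A : GL (Fin m) F) (B : sym m F), actM A B ∈ sym m F := by
    intro A B
    change (actM A B)ᵀ = actM A B
    have hB : (B : Matrix (Fin m) (Fin m) F)ᵀ = B := B.2
    rw [actM_transpose, hB]
  refine movA_of_homs (V := sym m F) (A := GL (Fin m) F) (p := p) ?_ (dgSp m F) (uniSp m F) uniSp_injective
    (fun A B => ⟨actM A B, hact A B⟩) ?_ (a := A) (by rw [orderOf_injective _ dgSp_injective, hA]) (v := ⟨B, hB⟩) ?_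
  · intro v
    apply Subtype.ext
    change p • (v : Matrix (Fin m) (Fin m) F) = 0
    rw [← Nat.cast_smul_eq_nsmul F, CharP.cast_eq_zero, zero_smul]
  · intro A B
    rw [mul_inv_eq_iff_eq_mul]
    apply Subtype.ext
    exact conj_blocks A B
  · intro h
    exact hne (congrArg Subtype.val h)

/-- the order of the centre of the symplectic group is prime to the characteristic -/
theorem center_sp [Finite F] {p : ℕ} [CharP F p] (hp : p.Prime) :
    ¬ p ∣ Nat.card (Subgroup.center (Matrix.symplecticGroup (Fin m) F)) := by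
  have : Finite (Matrix.symplecticGroup (Fin m) F) := Finite.of_injective _ Subtype.val_injective
  by_cases hp2 : p = 2
  · subst hp2
    have h1 : Subgroup.center (Matrix.symplecticGroup (Fin m) F) = ⊥ := by
      rw [eq_bot_iff]
      intro z hz
      rw [Subgroup.mem_bot]
      apply Subtype.ext
      have h2 : (-1 : Matrix (Fin m ⊕ Fin m) (Fin m ⊕ Fin m) F) = 1 := by
        have h3 : (-1 : F) = 1 := by
          rw [neg_eq_iff_add_eq_zero]
          have h4 : ((2 : ℕ) : F) = 0 := CharP.cast_eq_zero F 2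
          push_cast at h4
          rw [← h4]; norm_num
        ext i j
        rw [Matrix.neg_apply]
        by_cases hij : i = j
        · rw [hij, Matrix.one_apply_eq, h3]
        · rw [Matrix.one_apply_ne hij, neg_zero]
      rcases Cfsg.Agent.ClassicalGeometry.SympInvolutions.center_eq hz with h | h
      · exact h
      · rw [h, h2]; rfl
    rw [h1, Subgroup.card_bot]
    norm_num
  · exact not_dvd_card_of_sq hp hp2 sp_center_sq

theorem movA_psp [Fintype F] {p : ℕ} [CharP F p] (hp : p.Prime) {e r : ℕ} (hr : r.Prime)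
    (hr2 : r ≠ 2) (he1 : 1 ≤ e) (he : e ≤ m) (h : r ∣ Fintype.card F ^ e - 1) : MovA (Cfsg.PSp m F) p r :=
  have : Finite (Matrix.symplecticGroup (Fin m) F) := Finite.of_injective _ Subtype.val_injective
  MovA.quot _ (center_sp hp) hp hr (movA_sp hr hr2 he1 he h)

end mat

section orth

open Cfsg.Agent.LieClassical.OrthCount Cfsg.Agent.LieClassical.OmegaReindex Cfsg.Agent.LieClassical

/-- the order of the centre of `Ω` is prime to the characteristic -/
theorem center_omega {F : Type*} [Field F] [Finite F] {ι : Type} [Fintype ι] [DecidableEq ι]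
    {Q : QuadraticForm F (ι → F)} (hD : Cfsg.Agent.H390.Lift.Data Q) {p : ℕ} [CharP F p] (hp : p.Prime) :
    ¬ p ∣ Nat.card (Subgroup.center (Cfsg.Omega F ⇑Q)) := by
  by_cases hp2 : p = 2
  · subst hp2
    have h1 : Subgroup.center (Cfsg.Omega F ⇑Q) = ⊥ := by
      rw [eq_bot_iff]
      intro z hz
      rw [Subgroup.mem_bot]
      have h1 := (OmegaCenter.mem_center_omega_iff Q hD.nd hD.dim hD.iso z).1 hz
      apply OmegaCenter.omega_ext
      have h2 : (-1 : Matrix ι ι F) = 1 := by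
        have h3 : (-1 : F) = 1 := by
          rw [neg_eq_iff_add_eq_zero]
          have h4 : ((2 : ℕ) : F) = 0 := CharP.cast_eq_zero F 2
          push_cast at h4
          rw [← h4]; norm_num
        ext i j
        rw [Matrix.neg_apply]
        by_cases hij : i = j
        · rw [hij, Matrix.one_apply_eq, h3]
        · rw [Matrix.one_apply_ne hij, neg_zero]
      rcases h1 with h | h
      · rw [h]; rfl
      · rw [h, h2]; rfl
    rw [h1, Subgroup.card_bot]
    norm_num
  · exact not_dvd_card_of_sq hp hp2 fun z => Subtype.ext (Cfsg.Agent.H390.Lift.center_sq hD z z.2)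

/-- from the isometry group to `PΩ` -/
theorem movA_pomega {F : Type*} [Field F] [Finite F] {ι : Type} [Fintype ι] [DecidableEq ι] {Q : QuadraticForm F (ι → F)}
    (hD : Cfsg.Agent.H390.Lift.Data Q) {p r : ℕ} [CharP F p] (hp : p.Prime) (hr : r.Prime) (hr2 : r ≠ 2) (hpr : p ≠ r)
    (h : MovA (Cfsg.isometryGroup F ⇑Q) p r) : MovA (Cfsg.POmega F ⇑Q) p r :=
  MovA.quot _ (center_omega hD hp) hp hr
    (MovA.sub (Cfsg.Omega F ⇑Q) (fun _ hg => Cfsg.Agent.H390.Lift.mem_of_odd _ hD.idx (hr.odd_of_ne_two hr2) hg) hp hr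
      hpr h)

variable {F : Type} [Field F] [Fintype F] {m p e r : ℕ} [CharP F p]

theorem data_plus (hm : 3 ≤ m) : Cfsg.Agent.H390.Lift.Data (quadPlus m F) :=
  have hcard : Fintype.card (Fin m ⊕ Fin m) = 2 * m := by simp; ring
  Cfsg.Agent.H390.data_of _ quadPlus_nondegenerate (by rw [hcard]; omega)
    (quadPlus_isotropic (by omega)) (Or.inr (by rw [hcard]; omega))

theorem data_minus (hm : 3 ≤ m) {a b : F}
    (hab : ∀ z₁ z₂ : F, z₁ ^ 2 + a * z₁ * z₂ + b * z₂ ^ 2 = 0 → z₁ = 0 ∧ z₂ = 0) :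
    Cfsg.Agent.H390.Lift.Data (quadMinus m F a b) :=
  have hcard : Fintype.card ((Fin m ⊕ Fin m) ⊕ Fin 2) = 2 * m + 2 := by simp; ring
  Cfsg.Agent.H390.data_of _ (quadMinus_nondegenerate hab) (by rw [hcard]; omega)
    (quadMinus_isotropic (by omega) a b) (Or.inr (by rw [hcard]; omega))

theorem movA_plus (hp : p.Prime) (hm : 3 ≤ m) (hr : r.Prime) (hr2 : r ≠ 2) (hpr : p ≠ r) (he1 : 1 ≤ e) (he : e ≤ m)
    (h : r ∣ Fintype.card F ^ e - 1) : MovA (Cfsg.POmega F (Cfsg.quadFormPlus m F)) p r := by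
  have h1 : MovA (Cfsg.isometryGroup F (quadPlus m F)) p r := by
    rw [coe_quadPlus]
    exact movA_isom hm hr hr2 he1 he h
  rw [← coe_quadPlus]
  exact movA_pomega (data_plus hm) hp hr hr2 hpr h1

theorem movA_odd (hp : p.Prime) (hp2 : p ≠ 2) (hm : 3 ≤ m) (hr : r.Prime) (hr2 : r ≠ 2) (hpr : p ≠ r) (he1 : 1 ≤ e)
    (he : e ≤ m) (h : r ∣ Fintype.card F ^ e - 1) : MovA (Cfsg.POmega F (Cfsg.quadFormOdd m F)) p r := by
  have hcard : Fintype.card (Unit ⊕ (Fin m ⊕ Fin m)) = 2 * m + 1 := by simp; ring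
  have hD : Cfsg.Agent.H390.Lift.Data (quadOdd m F) :=
    Cfsg.Agent.H390.data_of _ (quadOdd_nondegenerate (two_ne hp2 hp)) (by rw [hcard]; omega)
    (quadOdd_isotropic (by omega)) (Or.inr (by rw [hcard]; omega))
  have h1 : MovA (Cfsg.isometryGroup F (quadOdd m F)) p r := by
    rw [coe_quadOdd]
    obtain ⟨f, hf⟩ := Cfsg.Agent.H104.OrthEmb.exists_emb_odd (F := F) m
    exact (movA_isom hm hr hr2 he1 he h).map f hf
  rw [← coe_quadOdd]
  exact movA_pomega hD hp hr hr2 hpr h1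

theorem movA_minus (hp : p.Prime) (hm : 3 ≤ m) {a b : F}
    (hab : ∀ z₁ z₂ : F, z₁ ^ 2 + a * z₁ * z₂ + b * z₂ ^ 2 = 0 → z₁ = 0 ∧ z₂ = 0)
    (hr : r.Prime) (hr2 : r ≠ 2) (hpr : p ≠ r) (he1 : 1 ≤ e) (he : e ≤ m)
    (h : r ∣ Fintype.card F ^ e - 1) : MovA (Cfsg.POmega F (Cfsg.quadFormMinus m F a b)) p r := by
  have h1 : MovA (Cfsg.isometryGroup F (quadMinus m F a b)) p r := by
    rw [coe_quadMinus]
    obtain ⟨f, hf⟩ := Cfsg.Agent.H104.OrthEmb.exists_emb_minus (F := F) m a b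
    exact (movA_isom hm hr hr2 he1 he h).map f hf
  rw [← coe_quadMinus]
  exact movA_pomega (data_minus hm hab) hp hr hr2 hpr h1

end orth

end Cfsg.Agent.R2.Spec.F1
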