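import Cfsg.Agent.R2.Spec.F1.MovA
import Cfsg.Agent.H127.TwFInv
import Cfsg.Agent.KFacts.TwF4.CentR
import Cfsg.Agent.H426.LieFam

/-!
# Moved primes of `²F₄(q)` (helper26)

`movA_full` : an element of odd prime order `r` commuting with an involution normalizes an elementary abelian 2-subgroup
(`Z_2 X_3 Z_4 X_5 Z_6` in the centralizer of a central root element, `Z_4 Z_6` in the centralizer of the other involutions)
without centralizing it; `movA_tf4` : the same for `Fam.Is v f S .tf4`.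
-/

set_option autoImplicit false
set_option linter.unusedSectionVars false
set_option linter.unusedVariables false

namespace Cfsg.Agent.R2.Spec.F1

open Subgroup Cfsg
open Cfsg.Agent.H426.LieFam

universe u

section full

open Cfsg.Agent.SplitTwo Cfsg.Agent.SplitTwo.ZS Cfsg.Agent.TitsThree.RankTwoZ Cfsg.Agent.KFacts.TwF4
open Cfsg.Agent.KFacts.TwF4.Arc Cfsg.Agent.KFacts.TwF4.Irr Cfsg.Agent.KFacts.TwF4.Layers
open Cfsg.Agent.KFacts.TwF4.Perf Cfsg.Agent.KFacts.TwF4.Inv Cfsg.Agent.KFacts.TwF4.SylU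

/-- an abelian 2-subgroup normalized by `b` whose centralizer is a 2-group -/
theorem movA_of_cent {G : Type*} [Group G] {A C : Subgroup G} (hA : IsPGroup 2 A) (hC : IsPGroup 2 C)
    (hAC : Subgroup.centralizer (A : Set G) ≤ C) {b : G} {r : ℕ} (hr : r.Prime) (hr2 : r ≠ 2) (hb : orderOf b = r)
    (hn : ∀ a ∈ A, b * a * b⁻¹ ∈ A) (hab : ∀ a ∈ A, ∀ a' ∈ A, a * a' = a' * a) : MovA G 2 r := by
  have hF2 := Fact.mk Nat.prime_two
  refine ⟨A, b, hA, hb, hn, ?_, hab⟩
  by_contra hcon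
  push Not at hcon
  have h1 : b ∈ C := hAC (Subgroup.mem_centralizer_iff.2 fun a ha => (hcon a ha).symm)
  obtain ⟨k, hk⟩ := (IsPGroup.iff_orderOf.1 hC) ⟨b, h1⟩
  rw [Subgroup.orderOf_mk, hb] at hk
  have h3 : r ∣ 2 ^ k := by rw [← hk]
  exact hr2 ((Nat.prime_dvd_prime_iff_eq hr Nat.prime_two).1 (hr.dvd_of_dvd_pow h3))

variable {F : Type*} [Field F] {σ : F →+* F} {G : Type u} [Group G] (S : Full σ G)

/-- in the centralizer of a central root element -/
theorem movA_PL [Finite F] [Finite G] (hR : S.R.p = 2) {b : G} {r : ℕ} (hr : r.Prime) (hr2 : r ≠ 2) (hb : orderOf b = r) (h : b ∈ S.PL) :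
    MovA G 2 r := by
  have h2 : IsPGroup 2 (J S.XZ 1 7) := two_J S hR (by norm_num)
  refine movA_of_cent (A := S.Q2) (C := J S.XZ 1 7) (h2.to_le (Q2_le_Q S)) h2 ?_ hr hr2 hb
    (fun a ha => Q2_norm' S h ha) (fun a ha a' ha' => Q2_comm S ha ha')
  rw [S.centralizer_Q2]
  exact Q1_le_Q S

/-- in the centralizer of the other involutions -/
theorem movA_HO [Finite F] [Finite G] (hR : S.R.p = 2) {b : G} {r : ℕ} (hr : r.Prime) (hr2 : r ≠ 2) (hb : orderOf b = r) (h : b ∈ S.HO) :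
    MovA G 2 r := by
  have h2 : IsPGroup 2 (J S.XZ 2 8) := two_J S hR (by norm_num)
  have hle : S.W46 ≤ J S.XZ 2 8 := fun x hx => J_mono (by norm_num) (by norm_num) (S.W46_le hx)
  refine movA_of_cent (A := S.W46) (C := J S.XZ 2 8) (h2.to_le hle) h2 ?_ hr hr2 hb
    (fun a ha => (Subgroup.mem_normalizer_iff.1 (S.W46_norm (HO_le_J S h)) a).1 ha)
    (fun a ha a' ha' => S.W46_comm (hle ha) ha')
  rw [S.centralizer_W46]

/-- **odd primes adjacent to 2** -/
theorem movA_full [Finite F] [Finite G] (hF : ∃ c : Fˣ, c ≠ 1) (hR : S.R.p = 2) {t b : G} (ht : t * t = 1) (ht1 : t ≠ 1)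
    {r : ℕ} (hr : r.Prime) (hr2 : r ≠ 2) (hb : orderOf b = r) (hbt : b * t = t * b) : MovA G 2 r := by
  have hconj : ∀ k : G, orderOf (k * b * k⁻¹) = r ∧ (k * b * k⁻¹) * (k * t * k⁻¹) = (k * t * k⁻¹) * (k * b * k⁻¹) := by
    intro k
    refine ⟨?_, ?_⟩
    · rw [← hb]
      exact (MulAut.conj k).orderOf_eq b
    · calc (k * b * k⁻¹) * (k * t * k⁻¹) = k * (b * t) * k⁻¹ := by group
        _ = k * (t * b) * k⁻¹ := by rw [hbt]
        _ = _ := by group
  rcases classes S hF hR ht ht1 with ⟨u, hu, k, hk⟩ | ⟨s, hs, k, hk⟩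
  · obtain ⟨h1, h2⟩ := hconj (S.rot * (S.rot * k))
    have e1 : S.rot * (S.rot * k) * t * (S.rot * (S.rot * k))⁻¹ = S.e 2 0 u := by
      calc S.rot * (S.rot * k) * t * (S.rot * (S.rot * k))⁻¹ = S.rot * (S.rot * (k * t * k⁻¹) * S.rot⁻¹) * S.rot⁻¹ := by
            group
        _ = S.e 2 0 u := by rw [hk, S.rot_e, S.rot_e]; rfl
    rw [e1] at h2
    have hz1 : S.e 2 0 u ≠ 1 := fun h => hu (S.e_eq_one h).2
    have hPL : S.rot * (S.rot * k) * b * (S.rot * (S.rot * k))⁻¹ ∈ S.PL := by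
      rw [← S.centralizer_z (z := S.e 2 0 u) ⟨u, rfl⟩ hz1, Subgroup.mem_centralizer_singleton_iff]
      exact h2
    exact movA_PL S hR hr hr2 h1 hPL
  · obtain ⟨h1, h2⟩ := hconj (S.rot * (S.rot * k))
    have e1 : S.rot * (S.rot * k) * t * (S.rot * (S.rot * k))⁻¹ = S.o 2 s := by
      calc S.rot * (S.rot * k) * t * (S.rot * (S.rot * k))⁻¹ = S.rot * (S.rot * (k * t * k⁻¹) * S.rot⁻¹) * S.rot⁻¹ := by
            group
        _ = S.o 2 s := by rw [hk, S.rot_o, S.rot_o]; rfl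
    rw [e1] at h2
    have hHO : S.rot * (S.rot * k) * b * (S.rot * (S.rot * k))⁻¹ ∈ S.HO := by
      rw [← S.centralizer_o hs, Subgroup.mem_centralizer_singleton_iff]
      exact h2
    exact movA_HO S hR hr hr2 h1 hHO

end full

/-- **Moved primes of `²F₄(q)`.** -/
theorem movA_tf4 {v f : ℕ} {S : Type u} [Group S] (h : Fam.Is v f S .tf4) {x : ℕ} (hx : x.Prime) (hx2 : x ≠ 2)
    (hg : ∃ g : S, orderOf g = x * 2) : MovA S v x := by
  classical
  obtain ⟨rfl, m, hm, rfl, K, _, _, hK, ⟨e⟩⟩ := h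
  obtain ⟨φ, hφ⟩ := Cfsg.Agent.ChevalleyStructure.TwF4.TwistedFix.exists_rln hK
  have := Cfsg.Agent.ChevalleyStructure.TwF4.Twisted.charP_two hK
  have h8 : 2 < Fintype.card K := by
    rw [hK]
    calc 2 < 2 ^ 3 := by norm_num
      _ ≤ 2 ^ (2 * m + 1) := Nat.pow_le_pow_right (by norm_num) (by omega)
  obtain ⟨c, hc'⟩ : ∃ c : K, c ∉ ({0, 1} : Finset K) := by
    by_contra hcon
    push Not at hcon
    have h1 : (Finset.univ : Finset K) ⊆ {0, 1} := fun x _ => hcon x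
    have h2 := Finset.card_le_card h1
    have h3 : ({0, 1} : Finset K).card ≤ 2 := Finset.card_le_two
    rw [Finset.card_univ] at h2
    omega
  simp only [Finset.mem_insert, Finset.mem_singleton, not_or] at hc'
  have hU : ∃ c : Kˣ, c ≠ 1 := ⟨Units.mk0 c hc'.1, fun h => hc'.2 (congrArg Units.val h)⟩
  have hfin : Finite ↥(Lie.twistedF4 K (2 ^ m)) := inferInstance
  refine (MovA.congr e).2 ?_
  obtain ⟨g, hg⟩ := hg
  set y : ↥(Lie.twistedF4 K (2 ^ m)) := e g with hy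
  have hyo : orderOf y = x * 2 := by rw [hy, MulEquiv.orderOf_eq, hg]
  have h1 : orderOf (y ^ 2) = x := by
    rw [orderOf_pow_of_dvd (by norm_num) (by rw [hyo]; exact dvd_mul_left _ _), hyo]
    exact Nat.mul_div_cancel _ (by norm_num)
  have h2 : orderOf (y ^ x) = 2 := by
    rw [orderOf_pow_of_dvd hx.ne_zero (by rw [hyo]; exact dvd_mul_right _ _), hyo]
    exact Nat.mul_div_cancel_left _ hx.pos
  have h3 : y ^ x * y ^ x = 1 := by
    have := pow_orderOf_eq_one (y ^ x)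
    rwa [h2, pow_two] at this
  have h4 : y ^ x ≠ 1 := by
    intro h0
    rw [h0, orderOf_one] at h2
    exact absurd h2 (by norm_num)
  exact movA_full (Cfsg.Agent.KFacts.TwF4.Inst.full hK hφ) hU rfl h3 h4 hx hx2 h1 (by rw [← pow_add, ← pow_add, add_comm])

end Cfsg.Agent.R2.Spec.F1
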