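import Cfsg.Agent.R2.Spec.F1.MovA
import Cfsg.Agent.KFacts.RgdLieCharP
import Cfsg.Agent.H35.ExcIdx
import Cfsg.Agent.H696.GmnNeg

/-!
# Abelian moved subgroups in groups with a root group datum (helper23)

`R` a root group datum in characteristic `p`, `r` a dominant root with `LR R r` (the highest root), `J` a set of nodes with
`r ∉ Φ_J` such that no `s_i`, `i ∈ J`, fixes the orbit `W_J r` pointwise.

* `ZV` : the centre of `V_J`; `cen_le_B` : elements of `P_J` centralizing it lie in `B`;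
* `movA_par` : a prime divisor `x` of `|P_J|` not dividing `|B|` : `MovA Y p x`;
* `movA_tor` : the same for `x ∣ |T|` if the root groups are abelian;
* `exists_nc` : two commuting root groups.
-/

set_option autoImplicit false
set_option linter.unusedSectionVars false
set_option linter.unusedVariables false

namespace Cfsg.Agent.R2.Spec.F1.RM

open CoxeterSystem Cfsg.Agent.ChevalleyStructure.CoxeterGeom Cfsg.Agent.Tits.Roots Cfsg.Agent.Tits.Core
  Cfsg.Agent.Tits.RootComb Cfsg.Agent.Tits.Exchange Cfsg.Agent.Nodes.Reps Cfsg.Agent.Nodes.BNOf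
  Cfsg.Agent.Nodes.StabComb Cfsg.Agent.Nodes.Bruhat Cfsg.Agent.Nodes.OppDec Cfsg.Agent.Nodes.LeviDec
  Cfsg.Agent.Nodes.NormX Cfsg.Agent.Nodes.Coroot Cfsg.Agent.KFacts.RgdPar Cfsg.Agent.KFacts.RgdSL
  Cfsg.Agent.KFacts.RgdTI Cfsg.Agent.KFacts.RgdCent Cfsg.Agent.KFacts.RgdVJ Cfsg.Agent.KFacts.RgdCharP
open Cfsg.Agent.R2.Spec.F1

variable {I W Y : Type*} [Fintype I] [DecidableEq I] [Group W] [Group Y] {M : CoxeterMatrix I}
  {cs : CoxeterSystem M W} {A : I → I → ℤ} {h : IsCartan M A} {p : ℕ} {T : Subgroup Y} {n : I → Y}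
  {X : (I → ℤ) → Subgroup Y}

/-- the centre of `V_J` -/
def ZV (cs : CoxeterSystem M W) (h : IsCartan M A) (X : (I → ℤ) → Subgroup Y) (J : Set I) : Subgroup Y :=
  VJ cs h X J ⊓ Subgroup.centralizer (VJ cs h X J : Set Y)

section

variable [Finite W] (R : RGD cs h p T n X)

include R

theorem zv_conj {J : Set I} {g z : Y} (hg : g ∈ PJ cs h T X J) (hz : z ∈ ZV cs h X J) : g * z * g⁻¹ ∈ ZV cs h X J := by
  have hgN := PJ_le_normalizer_VJ R J hg
  refine Subgroup.mem_inf.2 ⟨(Subgroup.mem_normalizer_iff.1 hgN z).1 hz.1, ?_⟩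
  rw [Subgroup.mem_centralizer_iff]
  intro v hv
  have h1 : g⁻¹ * v * g ∈ VJ cs h X J := by
    have := (Subgroup.mem_normalizer_iff.1 (inv_mem hgN) v).1 hv
    rwa [inv_inv] at this
  have h2 := Subgroup.mem_centralizer_iff.1 hz.2 _ h1
  calc v * (g * z * g⁻¹) = g * (g⁻¹ * v * g * z) * g⁻¹ := by group
    _ = g * (z * (g⁻¹ * v * g)) * g⁻¹ := by rw [h2]
    _ = _ := by group

variable {r : I → ℤ} (L : LR R r) (hd : ∀ i, 0 ≤ cpr cs h (sr i) r)

include L hd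

/-- the root group of the highest root is central in `U` -/
theorem comm_U {u v : Y} (hu : u ∈ RGD.Sup X (RGD.Pos cs h)) (hv : v ∈ X r) : u * v = v * u := by
  have h1 : RGD.Pos cs h ⊆ Ge cs h r := fun x hx => ⟨hx.1, dom_nonneg (f := ell cs h L.root) hd hx.2⟩
  exact L.comm' (RGD.Sup_mono h1 hu) hv

theorem X_le_ZV {J : Set I} (hr : r ∈ NotJ cs h J) {w : W} (hw : w ∈ WJ cs J) :
    X (rep cs h w r) ≤ ZV cs h X J := by
  obtain ⟨k, hk⟩ := exists_rp cs R.nsys w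
  have hkP : k ∈ PJ cs h T X J := LJ_le_PJ (rp_mem_LJ R hw hk)
  intro u hu
  have h1 : k⁻¹ * u * k ∈ X r := by
    have := R.conj_mem' hk (L.root.act w) hu
    rwa [rep_inv_apply] at this
  have h2 : k⁻¹ * u * k ∈ ZV cs h X J := by
    refine Subgroup.mem_inf.2 ⟨RGD.le_Sup hr h1, ?_⟩
    rw [Subgroup.mem_centralizer_iff]
    intro v hv
    exact comm_U R L hd (VJ_le_U J hv) h1
  have h3 := zv_conj R hkP h2
  have h4 : k * (k⁻¹ * u * k) * k⁻¹ = u := by group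
  rwa [h4] at h3

/-- **Elements of `P_J` centralizing the centre of `V_J` lie in `B`.** -/
theorem cen_le_B {J : Set I} (hr : r ∈ NotJ cs h J)
    (hJ : ∀ i ∈ J, ∃ w ∈ WJ cs J, pairing A i (rep cs h w r) ≠ 0) {c : Y} (hcP : c ∈ PJ cs h T X J)
    (hc : ∀ v ∈ ZV cs h X J, c * v = v * c) : c ∈ RGD.B cs h T X := by
  let C : Subgroup Y := Subgroup.centralizer (ZV cs h X J : Set Y) ⊓ PJ cs h T X J
  have hCP : C ≤ PJ cs h T X J := inf_le_right
  have hBC : RGD.B cs h T X ≤ Subgroup.normalizer (C : Set Y) := by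
    intro b hb
    rw [Subgroup.mem_normalizer_iff]
    have key : ∀ b ∈ RGD.B cs h T X, ∀ x ∈ C, b * x * b⁻¹ ∈ C := by
      intro b hb x hx
      refine Subgroup.mem_inf.2 ⟨?_, mul_mem (mul_mem (B_le_PJ hb) hx.2) (inv_mem (B_le_PJ hb))⟩
      rw [Subgroup.mem_centralizer_iff]
      intro v hv
      have h1 : b⁻¹ * v * b ∈ ZV cs h X J := by
        have := zv_conj R (inv_mem (B_le_PJ hb)) hv
        rwa [inv_inv] at this
      have h2 := Subgroup.mem_centralizer_iff.1 hx.1 _ h1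
      calc v * (b * x * b⁻¹) = b * (b⁻¹ * v * b * x) * b⁻¹ := by group
        _ = b * (x * (b⁻¹ * v * b)) * b⁻¹ := by rw [h2]
        _ = _ := by group
    intro x
    refine ⟨fun hx => key b hb x hx, fun hx => ?_⟩
    have h1 := key b⁻¹ (inv_mem hb) _ hx
    have h2 : b⁻¹ * (b * x * b⁻¹) * b⁻¹⁻¹ = x := by group
    rwa [h2] at h1
  have hmem : ∀ {g : Y}, g ∈ C ⊔ RGD.B cs h T X → ∃ c ∈ C, ∃ b ∈ RGD.B cs h T X, g = c * b := by
    intro g hg
    have h1 : g ∈ ((C ⊔ RGD.B cs h T X : Subgroup Y) : Set Y) := hg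
    rw [Subgroup.coe_mul_of_right_le_normalizer_left _ _ hBC, Set.mem_mul] at h1
    obtain ⟨c, hc, b, hb, e⟩ := h1
    exact ⟨c, hc, b, hb, e.symm⟩
  have hle : C ⊔ RGD.B cs h T X ≤ PJ cs h T X J := sup_le hCP B_le_PJ
  have h1 := inf_eq_PJ R (P := C ⊔ RGD.B cs h T X) le_sup_right
  have h2 : {i | n i ∈ C ⊔ RGD.B cs h T X} = (∅ : Set I) := by
    ext i
    simp only [Set.mem_ofPred_eq, Set.mem_empty_iff_false, iff_false]
    intro hi
    have hiJ : i ∈ J := by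
      have h3 := (cell_mem_PJ_iff R (cell_of_rp (rp_simple cs R.nsys i))).1 (hle hi)
      by_contra hiJ
      have h4 := NotJ.act h3 (sr_mem_NotJ (cs := cs) (h := h) hiJ)
      rw [rep_simple_sr] at h4
      exact h4.1.ne_zero (le_antisymm (neg_nonpos.2 (sr_nonneg i)) h4.2.1)
    obtain ⟨c, hc, b, hb, e⟩ := hmem hi
    obtain ⟨w, hw, ha0⟩ := hJ i hiJ
    have ha : rep cs h w r ∈ NotJ cs h J := NotJ.act hw hr
    have ha' : rep cs h (cs.simple i) (rep cs h w r) ∈ NotJ cs h J :=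
      NotJ.act (Subgroup.subset_closure ⟨i, hiJ, rfl⟩) ha
    have hne : rep cs h w r ≠ rep cs h (cs.simple i) (rep cs h w r) := by
      rw [rep_simple_eq]
      intro h4
      have h5 : pairing A i (rep cs h w r) • (sr i : I → ℤ) = 0 := by
        have : rep cs h w r - (rep cs h w r - pairing A i (rep cs h w r) • sr i) = 0 := sub_eq_zero.2 h4
        rwa [sub_sub_cancel] at this
      rcases smul_eq_zero.1 h5 with h6 | h6
      · exact ha0 h6
      · exact (isRoot_sr cs h i).ne_zero h6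
    refine X_ne_bot R ha.1 ((Subgroup.eq_bot_iff_forall _).2 fun v hv => ?_)
    refine eq_one_of_conj_X R hb ha.1 ha.2.1 ha'.1 ha'.2.1 hne hv ?_
    have h4 : n i * v * (n i)⁻¹ ∈ X (rep cs h (cs.simple i) (rep cs h w r)) := by
      rw [← R.conj i _ ha.1]
      exact conj_mem_cj.2 hv
    have h5 : c⁻¹ * (n i * v * (n i)⁻¹) * c = b * v * b⁻¹ := by rw [e]; group
    rw [← h5]
    have h8 : n i * v * (n i)⁻¹ ∈ ZV cs h X J := by
      have h9 := X_le_ZV R L hd hr (w := cs.simple i * w) (mul_mem (simple_mem_WJ cs hiJ) hw)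
      rw [rep_mul_apply] at h9
      exact h9 h4
    have h6 := Subgroup.mem_centralizer_iff.1 hc.1 _ h8
    have h7 : c⁻¹ * (n i * v * (n i)⁻¹) * c = n i * v * (n i)⁻¹ := by
      calc c⁻¹ * (n i * v * (n i)⁻¹) * c = c⁻¹ * (n i * v * (n i)⁻¹ * c) := by group
        _ = c⁻¹ * (c * (n i * v * (n i)⁻¹)) := by rw [h6]
        _ = _ := by group
    rw [h7]
    exact h4
  rw [h2, PJ_empty R] at h1
  have h3 : c ∈ (C ⊔ RGD.B cs h T X) ⊓ GG cs h T X := by
    refine ⟨Subgroup.mem_sup_left (Subgroup.mem_inf.2 ⟨?_, hcP⟩), PJ_le_GG hcP⟩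
    rw [Subgroup.mem_centralizer_iff]
    exact fun v hv => (hc v hv).symm
  rwa [h1] at h3

/-- **Parabolic subgroups.** -/
theorem movA_par [Finite Y] {J : Set I} (hr : r ∈ NotJ cs h J)
    (hJ : ∀ i ∈ J, ∃ w ∈ WJ cs J, pairing A i (rep cs h w r) ≠ 0) {x : ℕ} (hx : x.Prime)
    (hxP : x ∣ Nat.card (PJ cs h T X J)) (hxB : ¬ x ∣ Nat.card (RGD.B cs h T X)) : MovA Y p x := by
  have hxf := Fact.mk hx
  obtain ⟨⟨g, hgP⟩, hg⟩ := exists_prime_orderOf_dvd_card' x hxP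
  rw [Subgroup.orderOf_mk] at hg
  have hne : ∃ a ∈ ZV cs h X J, g * a ≠ a * g := by
    by_contra hcon
    push Not at hcon
    have h1 := cen_le_B R L hd hr hJ hgP hcon
    apply hxB
    rw [← hg, ← Subgroup.orderOf_mk g h1]
    exact orderOf_dvd_natCard _
  refine ⟨ZV cs h X J, g, (isPGroup_VJ R J).to_le inf_le_left, hg, fun a ha => zv_conj R hgP ha, hne, ?_⟩
  intro a ha b hb
  exact Subgroup.mem_centralizer_iff.1 hb.2 a ha.1

end

section

variable [Finite W] (R : RGD cs h p T n X)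

include R

/-- **The torus.** -/
theorem movA_tor [Finite Y] (hN : NoCent cs h T X)
    (hab : ∀ a, IsRoot cs h a → ∀ u ∈ X a, ∀ v ∈ X a, u * v = v * u) {x : ℕ} (hx : x.Prime)
    (hxT : x ∣ Nat.card T) : MovA Y p x := by
  have hxf := Fact.mk hx
  obtain ⟨⟨c, hcT⟩, hc⟩ := exists_prime_orderOf_dvd_card' x hxT
  rw [Subgroup.orderOf_mk] at hc
  have h1 : ∃ a, IsRoot cs h a ∧ ∃ u ∈ X a, c * u ≠ u * c := by
    by_contra hcon
    push Not at hcon
    have h2 := hN c hcT hcon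
    rw [h2, orderOf_one] at hc
    exact hx.one_lt.ne hc
  obtain ⟨a, ha, u, hu, hcu⟩ := h1
  refine ⟨X a, c, R.pgrp' ha, hc, fun b hb => ?_, ⟨u, hu, hcu⟩, hab a ha⟩
  rw [← R.tor a ha c hcT]
  exact conj_mem_cj.2 hb

end

/-- dominant roots -/
theorem cpr_of_dom [Finite W] {r : I → ℤ} (hr : IsRoot cs h r) (hdom : Dom A r) (i : I) : 0 ≤ cpr cs h (sr i) r := by
  have := Fintype.ofFinite W
  have h1 := form_nonneg_of_dom cs h hdom (sr_nonneg i)
  by_contra h2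
  have h3 := two_form_cpr cs h (sr i) hr
  have h4 := form_pos cs h hr.ne_zero
  have h5 := mul_neg_of_neg_of_pos (not_le.1 h2) h4
  rw [← h3, form_comm cs h] at h5
  linarith

/-- **Two commuting root groups.** -/
theorem exists_nc [Finite W] [Fact p.Prime] (R : RGD cs h p T n X) {r : I → ℤ} (L : LR R r) (hdom : Dom A r) {i : I}
    (hi : pairing A i r ≠ 0) (hN : r ∈ NotJ cs h ({i} : Set I)) :
    ∃ (E : Subgroup Y) (a b : Y), IsPGroup p E ∧ (∀ u ∈ E, ∀ v ∈ E, u * v = v * u) ∧ a ∈ E ∧ b ∈ E ∧ a ≠ 1 ∧ b ≠ 1 ∧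
      ∃ x y : I → ℤ, IsRoot cs h x ∧ IsRoot cs h y ∧ 0 ≤ x ∧ 0 ≤ y ∧ x ≠ y ∧ a ∈ X x ∧ b ∈ X y := by
  have hd := cpr_of_dom L.root hdom
  have h1 := X_le_ZV R L hd hN (one_mem (WJ cs ({i} : Set I)))
  have h2 := X_le_ZV R L hd hN (w := cs.simple i) (simple_mem_WJ cs (Set.mem_singleton i))
  rw [map_one, Module.End.one_apply] at h1
  have hN' : rep cs h (cs.simple i) r ∈ NotJ cs h ({i} : Set I) :=
    NotJ.act (simple_mem_WJ cs (Set.mem_singleton i)) hN
  obtain ⟨a, ha⟩ := Subgroup.ne_bot_iff_exists_ne_one.1 (X_ne_bot R L.root)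
  obtain ⟨b, hb⟩ := Subgroup.ne_bot_iff_exists_ne_one.1 (X_ne_bot R hN'.1)
  refine ⟨ZV cs h X {i}, a, b, (isPGroup_VJ R _).to_le inf_le_left, fun u hu v hv => ?_, h1 a.2, h2 b.2,
    fun e => ha (Subtype.ext e), fun e => hb (Subtype.ext e), r, _, L.root, hN'.1, hN.2.1, hN'.2.1, ?_, a.2, b.2⟩
  · exact Subgroup.mem_centralizer_iff.1 hv.2 u hu.1
  · rw [rep_simple_eq]
    intro h4
    have h5 : pairing A i r • (sr i : I → ℤ) = 0 := by
      have : r - (r - pairing A i r • sr i) = 0 := sub_eq_zero.2 h4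
      rwa [sub_sub_cancel] at this
    rcases smul_eq_zero.1 h5 with h6 | h6
    · exact hi h6
    · exact (isRoot_sr cs h i).ne_zero h6

/-- different positive root groups meet trivially -/
theorem inf_eq_bot [Finite W] (R : RGD cs h p T n X) {x y : I → ℤ} (hx : IsRoot cs h x) (hy : IsRoot cs h y)
    (hx0 : 0 ≤ x) (hy0 : 0 ≤ y) (hxy : x ≠ y) {u : Y} (hu : u ∈ X x) (hu' : u ∈ X y) : u = 1 :=
  eq_one_of_conj_X R (b := 1) (one_mem _) hx hx0 hy hy0 hxy hu (by rwa [one_mul, inv_one, mul_one])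

end Cfsg.Agent.R2.Spec.F1.RM
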